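import Mathlib

/-!
# Arithmetic for S4842 (helper670)

`r` a prime, `D = orderOf (p : ZMod r)`, and the congruence `e p^m ≡ p^k (mod r)`, `e = ±1`.

* `modEq_pos`  : `e = 1`: `m ≡ k (mod D)`;  `dvd_pos` : `k = 0`: `D ∣ m`.
* `modEq_neg`  : `e = -1`, `r ≠ 2`: `2 m ≡ 2 k (mod D)` and not `m ≡ k (mod D)`; `dvd_neg` : `k = 0`: `D ∣ 2 m`, `¬ D ∣ m`,
  and then `v₂(D) = v₂(m) + 1` (`val_neg`).
* `close_two`  : two such primes (`k = 0`) with `v₂(D₁) ≠ v₂(D₂)`: `e = 1`, `D₁ ∣ m`, `D₂ ∣ m`; `close_two_mul` : `Dᵢ = a dᵢ`.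
* `close_odd`  : one such prime with `D` odd: `e = 1`, `D ∣ m`.
-/

set_option autoImplicit false

namespace Cfsg.Agent.H670.OneZ

variable {p r m k D : ℕ}

theorem cast_of_dvd {e : ℤ} (h : (r : ℤ) ∣ e * (p : ℤ) ^ m - (p : ℤ) ^ k) :
    ((e : ℤ) : ZMod r) * (p : ZMod r) ^ m = (p : ZMod r) ^ k := by
  have h1 := (ZMod.intCast_zmod_eq_zero_iff_dvd _ r).2 h
  push_cast at h1
  exact sub_eq_zero.1 h1

/-- `p` is a unit modulo `r` when the order is positive -/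
theorem ne_zero_of_order [Fact r.Prime] (hD : orderOf (p : ZMod r) = D) (hD0 : 0 < D) : (p : ZMod r) ≠ 0 := by
  intro h
  have h1 : (p : ZMod r) ^ D = 1 := by rw [← hD]; exact pow_orderOf_eq_one _
  rw [h, zero_pow hD0.ne'] at h1
  exact zero_ne_one h1

theorem modEq_pos (hr : r.Prime) (hD : orderOf (p : ZMod r) = D) (hD0 : 0 < D)
    (h : (r : ℤ) ∣ 1 * (p : ℤ) ^ m - (p : ℤ) ^ k) : m ≡ k [MOD D] := by
  have : Fact r.Prime := ⟨hr⟩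
  have h1 := cast_of_dvd h
  rw [Int.cast_one, one_mul] at h1
  have h0 := ne_zero_of_order hD hD0
  let u : (ZMod r)ˣ := Units.mk0 _ h0
  have hu : orderOf u = D := by rw [← hD, ← orderOf_units]; rfl
  have h2 : u ^ m = u ^ k := Units.ext (by push_cast; exact h1)
  rw [← hu]
  exact pow_eq_pow_iff_modEq.1 h2

theorem dvd_pos (hr : r.Prime) (hD : orderOf (p : ZMod r) = D) (hD0 : 0 < D)
    (h : (r : ℤ) ∣ 1 * (p : ℤ) ^ m - (p : ℤ) ^ 0) : D ∣ m :=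
  (Nat.modEq_zero_iff_dvd).1 (modEq_pos hr hD hD0 h)

theorem modEq_neg (hr : r.Prime) (hr2 : r ≠ 2) (hD : orderOf (p : ZMod r) = D) (hD0 : 0 < D)
    (h : (r : ℤ) ∣ (-1) * (p : ℤ) ^ m - (p : ℤ) ^ k) : 2 * m ≡ 2 * k [MOD D] ∧ ¬ m ≡ k [MOD D] := by
  have : Fact r.Prime := ⟨hr⟩
  have h1 := cast_of_dvd h
  rw [Int.cast_neg, Int.cast_one, neg_one_mul] at h1
  have h0 := ne_zero_of_order hD hD0
  let u : (ZMod r)ˣ := Units.mk0 _ h0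
  have hu : orderOf u = D := by rw [← hD, ← orderOf_units]; rfl
  constructor
  · have h2 : u ^ (2 * m) = u ^ (2 * k) := by
      apply Units.ext
      push_cast
      show (p : ZMod r) ^ (2 * m) = (p : ZMod r) ^ (2 * k)
      rw [mul_comm 2 m, mul_comm 2 k, pow_mul, pow_mul, ← h1, neg_sq]
    rw [← hu]
    exact pow_eq_pow_iff_modEq.1 h2
  · intro h2
    rw [← hu] at h2
    have h3 := congrArg (fun x : (ZMod r)ˣ => (x : ZMod r)) (pow_eq_pow_iff_modEq.2 h2)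
    have h4 : (p : ZMod r) ^ m = (p : ZMod r) ^ k := by
      simpa [u] using h3
    rw [← h4] at h1
    have h5 : (2 : ZMod r) * (p : ZMod r) ^ m = 0 := by
      rw [two_mul]
      nth_rw 1 [← h1]
      rw [neg_add_cancel]
    rcases mul_eq_zero.1 h5 with h6 | h6
    · have h7 : ((2 : ℕ) : ZMod r) = 0 := by exact_mod_cast h6
      rw [ZMod.natCast_eq_zero_iff] at h7
      exact hr2 ((Nat.prime_dvd_prime_iff_eq hr Nat.prime_two).1 h7)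
    · exact pow_ne_zero m h0 h6

theorem dvd_neg (hr : r.Prime) (hr2 : r ≠ 2) (hD : orderOf (p : ZMod r) = D) (hD0 : 0 < D)
    (h : (r : ℤ) ∣ (-1) * (p : ℤ) ^ m - (p : ℤ) ^ 0) : D ∣ 2 * m ∧ ¬ D ∣ m := by
  obtain ⟨h1, h2⟩ := modEq_neg hr hr2 hD hD0 h
  exact ⟨Nat.modEq_zero_iff_dvd.1 h1, fun h3 => h2 (Nat.modEq_zero_iff_dvd.2 h3)⟩

/-- the valuation at 2 -/
theorem val_neg (hD0 : 0 < D) (h1 : D ∣ 2 * m) (h2 : ¬ D ∣ m) : padicValNat 2 D = padicValNat 2 m + 1 := by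
  have hm : m ≠ 0 := by rintro rfl; exact h2 (dvd_zero D)
  have : Fact (Nat.Prime 2) := ⟨Nat.prime_two⟩
  have h3 : padicValNat 2 (2 * m) = padicValNat 2 m + 1 := by
    rw [padicValNat.mul (by norm_num) hm, padicValNat.self (by norm_num), add_comm]
  apply le_antisymm
  · rw [← h3]
    exact (padicValNat_dvd_iff_le (by omega)).1 ((pow_padicValNat_dvd).trans h1)
  · by_contra hlt
    apply h2
    -- `D = 2^v * D'`, `D'` odd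
    obtain ⟨v, D', hD', rfl⟩ := Nat.exists_eq_two_pow_mul_odd hD0.ne'
    have hv : padicValNat 2 (2 ^ v * D') = v := by
      rw [padicValNat.mul (by positivity) (by rintro rfl; exact absurd hD' (by decide)),
        padicValNat.prime_pow, padicValNat.eq_zero_of_not_dvd hD'.not_two_dvd_nat, add_zero]
    rw [hv] at hlt
    have h4 : 2 ^ v ∣ m := (padicValNat_dvd_iff_le hm).2 (by omega)
    have h5 : D' ∣ m := by
      have h6 : D' ∣ 2 * m := (Dvd.intro_left _ rfl).trans h1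
      exact (Nat.Coprime.dvd_mul_left (Nat.coprime_two_right.2 hD')).1 h6
    exact Nat.Coprime.mul_dvd_of_dvd_of_dvd ((Nat.coprime_two_left.2 hD').pow_left v) h4 h5

theorem close_odd (hr : r.Prime) (hr2 : r ≠ 2) (hD : orderOf (p : ZMod r) = D) (hodd : Odd D) {e : ℤ}
    (he : e = 1 ∨ e = -1) (h : (r : ℤ) ∣ e * (p : ℤ) ^ m - (p : ℤ) ^ 0) : e = 1 ∧ D ∣ m := by
  have hD0 : 0 < D := hodd.pos
  rcases he with rfl | rfl
  · exact ⟨rfl, dvd_pos hr hD hD0 h⟩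
  · exfalso
    obtain ⟨h1, h2⟩ := dvd_neg hr hr2 hD hD0 h
    exact h2 ((Nat.Coprime.dvd_mul_left (Nat.coprime_two_right.2 hodd)).1 h1)

theorem close_two {r₁ r₂ D₁ D₂ : ℕ} (hr₁ : r₁.Prime) (h₁2 : r₁ ≠ 2) (hD₁ : orderOf (p : ZMod r₁) = D₁) (hD₁0 : 0 < D₁)
    (hr₂ : r₂.Prime) (h₂2 : r₂ ≠ 2) (hD₂ : orderOf (p : ZMod r₂) = D₂) (hD₂0 : 0 < D₂)
    (hv : padicValNat 2 D₁ ≠ padicValNat 2 D₂) {e : ℤ} (he : e = 1 ∨ e = -1)
    (h₁ : (r₁ : ℤ) ∣ e * (p : ℤ) ^ m - (p : ℤ) ^ 0) (h₂ : (r₂ : ℤ) ∣ e * (p : ℤ) ^ m - (p : ℤ) ^ 0) :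
    e = 1 ∧ D₁ ∣ m ∧ D₂ ∣ m := by
  rcases he with rfl | rfl
  · exact ⟨rfl, dvd_pos hr₁ hD₁ hD₁0 h₁, dvd_pos hr₂ hD₂ hD₂0 h₂⟩
  · exfalso
    obtain ⟨a1, a2⟩ := dvd_neg hr₁ h₁2 hD₁ hD₁0 h₁
    obtain ⟨b1, b2⟩ := dvd_neg hr₂ h₂2 hD₂ hD₂0 h₂
    exact hv ((val_neg hD₁0 a1 a2).trans (val_neg hD₂0 b1 b2).symm)

theorem val_mul {a d : ℕ} (ha : 0 < a) (hd : 0 < d) : padicValNat 2 (a * d) = padicValNat 2 a + padicValNat 2 d := by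
  have : Fact (Nat.Prime 2) := ⟨Nat.prime_two⟩
  exact padicValNat.mul ha.ne' hd.ne'

/-- two isolated numbers `d₁`, `d₂` with different 2-parts -/
theorem close_two_mul {r₁ r₂ a d₁ d₂ : ℕ} (ha : 0 < a) (hd₁ : 0 < d₁) (hd₂ : 0 < d₂)
    (hr₁ : r₁.Prime) (h₁2 : r₁ ≠ 2) (hD₁ : orderOf (p : ZMod r₁) = a * d₁)
    (hr₂ : r₂.Prime) (h₂2 : r₂ ≠ 2) (hD₂ : orderOf (p : ZMod r₂) = a * d₂)
    (hv : padicValNat 2 d₁ ≠ padicValNat 2 d₂) {e : ℤ} (he : e = 1 ∨ e = -1)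
    (h₁ : (r₁ : ℤ) ∣ e * (p : ℤ) ^ m - (p : ℤ) ^ 0) (h₂ : (r₂ : ℤ) ∣ e * (p : ℤ) ^ m - (p : ℤ) ^ 0) :
    e = 1 ∧ ∃ x, m = a * x ∧ d₁ ∣ x ∧ d₂ ∣ x := by
  obtain ⟨h3, h4, h5⟩ := close_two hr₁ h₁2 hD₁ (by positivity) hr₂ h₂2 hD₂ (by positivity)
    (by rw [val_mul ha hd₁, val_mul ha hd₂]; omega) he h₁ h₂
  refine ⟨h3, ?_⟩
  obtain ⟨x, rfl⟩ : a ∣ m := (Dvd.intro d₁ rfl).trans h4
  exact ⟨x, rfl, Nat.dvd_of_mul_dvd_mul_left ha h4, Nat.dvd_of_mul_dvd_mul_left ha h5⟩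

/-- further isolated numbers, `e = 1` -/
theorem dvd_mul_pos {a d x : ℕ} (ha : 0 < a) (hd : 0 < d) (hr : r.Prime) (hD : orderOf (p : ZMod r) = a * d)
    (h : (r : ℤ) ∣ 1 * (p : ℤ) ^ (a * x) - (p : ℤ) ^ 0) : d ∣ x :=
  Nat.dvd_of_mul_dvd_mul_left ha (dvd_pos hr hD (by positivity) h)

/-- shifted congruences (constancy on `z K`), `e = 1` : `x ≡ y (mod d)`, where `m = a x`, `k = a y` -/
theorem modEq_mul_pos {a d x y : ℕ} (ha : 0 < a) (hd : 0 < d) (hr : r.Prime) (hD : orderOf (p : ZMod r) = a * d)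
    (h : (r : ℤ) ∣ 1 * (p : ℤ) ^ (a * x) - (p : ℤ) ^ (a * y)) : x ≡ y [MOD d] := by
  have h1 := modEq_pos hr hD (by positivity) h
  exact Nat.ModEq.mul_left_cancel' ha.ne' h1

end Cfsg.Agent.H670.OneZ
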