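import Cfsg.Agent.H732.VZ.Bridge
import Cfsg.Agent.OddOrderLocal.CyclicSub

/-!
# Isolated primes from cyclic centralizers (helper670, S4842)
-/

set_option autoImplicit false

namespace Cfsg.Agent.H670.OneZ

open Subgroup Cfsg.Agent.H732.VZ

universe u

variable {G : Type u} [Group G] [Finite G] {r : ℕ}

omit [Finite G] in
theorem conj_pow_iter {y x : G} {j : ℕ} (h : y * x * y⁻¹ = x ^ j) (n : ℕ) : y ^ n * x * (y ^ n)⁻¹ = x ^ j ^ n := by
  induction n with
  | zero => simp
  | succ n ih =>
    calc y ^ (n + 1) * x * (y ^ (n + 1))⁻¹ = y * (y ^ n * x * (y ^ n)⁻¹) * y⁻¹ := by rw [pow_succ']; group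
      _ = y * x ^ j ^ n * y⁻¹ := by rw [ih]
      _ = (y * x * y⁻¹) ^ j ^ n := by rw [conj_pow]
      _ = x ^ j ^ (n + 1) := by rw [h, ← pow_mul, pow_succ']

/-- if the index of the centralizer in the normalizer is less than `r - 1`, then some power is not conjugate -/
theorem exists_not_conj {x : G} (hr : r.Prime) (hx : orderOf x = r) {n : ℕ}
    (hn : Nat.card (normalizer ((zpowers x : Subgroup G) : Set G)) = Nat.card (centralizer ({x} : Set G)) * n)
    (h : n < r - 1) : ∃ i : ℕ, i.Coprime r ∧ ¬ IsConj x (x ^ i) := by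
  by_contra! hcon
  have : Fact r.Prime := ⟨hr⟩
  obtain ⟨g, hg⟩ := IsCyclic.exists_generator (α := (ZMod r)ˣ)
  have hgo : orderOf g = r - 1 := by
    rw [orderOf_eq_card_of_forall_mem_zpowers hg, Nat.card_eq_fintype_card, ZMod.card_units_eq_totient,
      Nat.totient_prime hr]
  obtain ⟨j, hj⟩ : ∃ j : ℕ, (j : ZMod r) = (g : ZMod r) := ⟨(g : ZMod r).val, by rw [ZMod.natCast_val, ZMod.cast_id]⟩
  have hjc : j.Coprime r := by
    rw [← ZMod.isUnit_iff_coprime, hj]
    exact g.isUnit
  obtain ⟨y, hy⟩ := isConj_iff.1 (hcon j hjc)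
  have hyN : y ∈ normalizer ((zpowers x : Subgroup G) : Set G) := by
    refine mem_normalizer_fintype fun a ha => ?_
    obtain ⟨k, rfl⟩ := mem_zpowers_iff.1 ha
    rw [← conj_zpow, hy]
    exact zpow_mem (pow_mem (mem_zpowers x) j) k
  have hcN : centralizer ({x} : Set G) ≤ normalizer ((zpowers x : Subgroup G) : Set G) := by
    intro c hc
    refine mem_normalizer_fintype fun a ha => ?_
    obtain ⟨k, rfl⟩ := mem_zpowers_iff.1 ha
    have h1 : c * x * c⁻¹ = x := by rw [mem_centralizer_singleton_iff.1 hc]; group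
    rw [← conj_zpow, h1]
    exact zpow_mem (mem_zpowers x) k
  have hinj : Function.Injective (fun a : Fin (r - 1) × ↥(centralizer ({x} : Set G)) =>
      (⟨y ^ (a.1 : ℕ) * a.2, mul_mem (pow_mem hyN _) (hcN a.2.2)⟩ :
        ↥(normalizer ((zpowers x : Subgroup G) : Set G)))) := by
    rintro ⟨i, c⟩ ⟨i', c'⟩ heq
    have h1 : y ^ (i : ℕ) * c = y ^ (i' : ℕ) * c' := congrArg Subtype.val heq
    have key : ∀ (i : ℕ) (c : ↥(centralizer ({x} : Set G))), y ^ i * c * x * (y ^ i * c)⁻¹ = x ^ j ^ i := by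
      intro i c
      rw [← conj_pow_iter hy i]
      have := mem_centralizer_singleton_iff.1 c.2
      rw [mul_inv_rev, mul_assoc (y ^ i) _ x, this]
      group
    have h2 : x ^ j ^ (i : ℕ) = x ^ j ^ (i' : ℕ) := by rw [← key i c, ← key i' c', h1]
    rw [pow_eq_pow_iff_modEq, hx, ← ZMod.natCast_eq_natCast_iff] at h2
    push_cast at h2
    rw [hj] at h2
    have h3 : g ^ (i : ℕ) = g ^ (i' : ℕ) := Units.ext (by push_cast; exact h2)
    rw [pow_eq_pow_iff_modEq, hgo] at h3
    have h4 : (i : ℕ) = i' := by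
      rw [Nat.ModEq, Nat.mod_eq_of_lt i.2, Nat.mod_eq_of_lt i'.2] at h3
      exact h3
    rw [h4] at h1
    have h5 := mul_left_cancel h1
    exact Prod.ext (Fin.ext h4) (Subtype.ext h5)
  have h1 := Nat.card_le_card_of_injective _ hinj
  rw [Nat.card_prod, hn, Nat.card_fin, mul_comm] at h1
  have := Nat.le_of_mul_le_mul_left h1 Nat.card_pos
  omega

/-- **Isolated primes from cyclic centralizers.** -/
theorem iso_of_cyclic {p : ℕ} (hr : r.Prime) (hrp : r ≠ p) (hrG : r ∣ Nat.card G)
    (hcyc : ∀ x : G, orderOf x = r → IsCyclic (centralizer ({x} : Set G)))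
    (hcop : ∀ x : G, orderOf x = r → p.Coprime (Nat.card (centralizer ({x} : Set G))))
    (h4 : ∀ x : G, orderOf x = r → Nat.card (centralizer ({x} : Set G)) ≠ r ∨
      ∃ m : ℕ, ¬ r ∣ m ∧ ¬ IsConj x (x ^ m)) : Iso G p r := by
  have : Fact r.Prime := ⟨hr⟩
  obtain ⟨R⟩ : Nonempty (Sylow r G) := inferInstance
  have hRr : r ∣ Nat.card (R : Subgroup G) := R.dvd_card_of_dvd_card hrG
  have hnt : Nontrivial (R : Subgroup G) := by
    rw [← Finite.one_lt_card_iff_nontrivial]
    exact lt_of_lt_of_le hr.one_lt (Nat.le_of_dvd Nat.card_pos hRr)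
  have hcn : Nontrivial (center (R : Subgroup G)) := R.2.center_nontrivial
  -- an element of order `r` in the center
  have hc1 : r ∣ Nat.card (center (R : Subgroup G)) := by
    obtain ⟨k, hk⟩ := (R.2.to_subgroup (center (R : Subgroup G))).exists_card_eq
    have h1 : 1 < Nat.card (center (R : Subgroup G)) := Finite.one_lt_card
    rcases Nat.eq_zero_or_pos k with h | h
    · rw [hk, h, pow_zero] at h1; omega
    · rw [hk]; exact dvd_pow_self r h.ne'
  obtain ⟨z', hz'⟩ := exists_prime_orderOf_dvd_card' r hc1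
  set z : G := ((z' : (R : Subgroup G)) : G) with hz
  have hzo : orderOf z = r := by
    rw [hz, Subgroup.orderOf_coe, Subgroup.orderOf_coe, hz']
  have hzR : z ∈ (R : Subgroup G) := (z' : (R : Subgroup G)).2
  have hRC : (R : Subgroup G) ≤ centralizer ({z} : Set G) := by
    intro t ht
    rw [mem_centralizer_singleton_iff]
    exact congrArg Subtype.val (mem_center_iff.1 z'.2 ⟨t, ht⟩)
  have hC := hcyc z hzo
  have hcomm : ∀ a ∈ centralizer ({z} : Set G), ∀ b ∈ centralizer ({z} : Set G), a * b = b * a := by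
    intro a ha b hb
    have := (IsCyclic.commGroup (α := centralizer ({z} : Set G))).mul_comm ⟨a, ha⟩ ⟨b, hb⟩
    exact congrArg Subtype.val this
  refine Iso.of_sylow hrp R ?_ hzo hzR ?_ (hcop z hzo) (h4 z hzo)
  · exact isCyclic_of_injective (Subgroup.inclusion hRC) (Subgroup.inclusion_injective hRC)
  · intro a ha
    rw [mem_centralizer_iff]
    intro b hb
    exact hcomm b (hRC hb) a ha

/-- the condition `h4` from the index of the centralizer in the normalizer and a large element -/
theorem h4_of_idx (hr : r.Prime) {m : ℕ} (hm : m ∣ r - 1)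
    (hcyc : ∀ x : G, orderOf x = r → IsCyclic (centralizer ({x} : Set G)))
    (hidx : ∀ x : G, orderOf x = r → Nat.card (normalizer ((zpowers x : Subgroup G) : Set G)) ≤
      m * Nat.card (centralizer ({x} : Set G)))
    {g : G} (hg : r ∣ orderOf g) (hlt : m + 1 < orderOf g) (x : G) (hx : orderOf x = r) :
    Nat.card (centralizer ({x} : Set G)) ≠ r ∨ ∃ m : ℕ, ¬ r ∣ m ∧ ¬ IsConj x (x ^ m) := by
  have : Fact r.Prime := ⟨hr⟩
  by_cases hmr : m = r - 1
  · -- `|C(x)| ≥ o(g) > r`
    left
    intro hcx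
    -- the power of `g` of order `r`
    have hgo : 0 < orderOf g := orderOf_pos g
    obtain ⟨c, hc⟩ := hg
    have hc0 : c ≠ 0 := by rintro rfl; omega
    set y := g ^ c with hy
    have hyo : orderOf y = r := by
      rw [hy, orderOf_pow' g hc0, hc, Nat.gcd_eq_right (Dvd.intro_left r rfl), Nat.mul_div_cancel _ (by omega)]
    -- `y` is conjugate to a power of `x` : the Sylow subgroups are cyclic
    have hsyl : ∀ z : G, orderOf z = r → ∃ R : Sylow r G, z ∈ (R : Subgroup G) := by
      intro z hz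
      have hp : IsPGroup r (zpowers z) := IsPGroup.of_card (n := 1) (by rw [Nat.card_zpowers, hz, pow_one])
      obtain ⟨R, hR⟩ := hp.exists_le_sylow
      exact ⟨R, hR (mem_zpowers z)⟩
    obtain ⟨R, hxR⟩ := hsyl x hx
    obtain ⟨Q, hyQ⟩ := hsyl y hyo
    obtain ⟨s, hs⟩ := MulAction.exists_smul_eq G Q R
    have hyR : s * y * s⁻¹ ∈ (R : Subgroup G) := by
      rw [← hs, Sylow.coe_subgroup_smul]
      exact Subgroup.smul_mem_pointwise_smul _ _ _ hyQ
    -- `R` is cyclic
    have hRr : r ∣ Nat.card (R : Subgroup G) := by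
      have h1 := Subgroup.orderOf_dvd_natCard _ hxR
      rwa [hx] at h1
    have hnt : Nontrivial (R : Subgroup G) := by
      rw [← Finite.one_lt_card_iff_nontrivial]
      exact lt_of_lt_of_le hr.one_lt (Nat.le_of_dvd Nat.card_pos hRr)
    have hcn : Nontrivial (center (R : Subgroup G)) := R.2.center_nontrivial
    have hc1 : r ∣ Nat.card (center (R : Subgroup G)) := by
      obtain ⟨k, hk⟩ := (R.2.to_subgroup (center (R : Subgroup G))).exists_card_eq
      have h1 : 1 < Nat.card (center (R : Subgroup G)) := Finite.one_lt_card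
      rcases Nat.eq_zero_or_pos k with h | h
      · rw [hk, h, pow_zero] at h1; omega
      · rw [hk]; exact dvd_pow_self r h.ne'
    obtain ⟨z', hz'⟩ := exists_prime_orderOf_dvd_card' r hc1
    set z : G := ((z' : (R : Subgroup G)) : G) with hz
    have hzo : orderOf z = r := by
      rw [hz, Subgroup.orderOf_coe, Subgroup.orderOf_coe, hz']
    have hRC : (R : Subgroup G) ≤ centralizer ({z} : Set G) := by
      intro t ht
      rw [mem_centralizer_singleton_iff]
      exact congrArg Subtype.val (mem_center_iff.1 z'.2 ⟨t, ht⟩)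
    have hC := hcyc z hzo
    have hRcyc : IsCyclic (R : Subgroup G) :=
      isCyclic_of_injective (Subgroup.inclusion hRC) (Subgroup.inclusion_injective hRC)
    have hzz : zpowers (s * y * s⁻¹) = zpowers x := by
      have h1 : orderOf (⟨s * y * s⁻¹, hyR⟩ : (R : Subgroup G)) = orderOf (⟨x, hxR⟩ : (R : Subgroup G)) := by
        rw [Subgroup.orderOf_mk, Subgroup.orderOf_mk, hx, ← MulAut.conj_apply, MulEquiv.orderOf_eq, hyo]
      have h2 : zpowers (⟨s * y * s⁻¹, hyR⟩ : (R : Subgroup G)) = zpowers (⟨x, hxR⟩ : (R : Subgroup G)) := by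
        refine OddOrderLocal.CyclicSub.eq_of_card_eq_of_le_cyclic (Z := (⊤ : Subgroup (R : Subgroup G))) ?_ le_top le_top ?_
        · exact isCyclic_of_surjective (Subgroup.topEquiv : (⊤ : Subgroup (R : Subgroup G)) ≃* _).symm.toMonoidHom
            (Subgroup.topEquiv : (⊤ : Subgroup (R : Subgroup G)) ≃* _).symm.surjective
        · rw [Nat.card_zpowers, Nat.card_zpowers, h1]
      have h3 := congrArg (fun K : Subgroup (R : Subgroup G) => K.map (R : Subgroup G).subtype) h2
      simpa [MonoidHom.map_zpowers] using h3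
    -- `s g s⁻¹` centralizes `x`
    have hgx : s * g * s⁻¹ ∈ centralizer ({x} : Set G) := by
      rw [mem_centralizer_singleton_iff]
      have h1 : x ∈ zpowers (s * y * s⁻¹) := by rw [hzz]; exact mem_zpowers x
      obtain ⟨k, hk⟩ := mem_zpowers_iff.1 h1
      rw [← hk]
      have h2 : Commute (s * g * s⁻¹) (s * y * s⁻¹) := by
        have : s * y * s⁻¹ = (s * g * s⁻¹) ^ c := by rw [conj_pow, hy]
        rw [this]
        exact (Commute.refl _).pow_right c
      exact (h2.zpow_right k).eq
    have h5 := Subgroup.orderOf_dvd_natCard _ hgx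
    rw [← MulAut.conj_apply, MulEquiv.orderOf_eq, hcx] at h5
    have := Nat.le_of_dvd hr.pos h5
    have := hr.two_le
    omega
  · right
    have hcN : centralizer ({x} : Set G) ≤ normalizer ((zpowers x : Subgroup G) : Set G) := by
      intro c hc
      refine mem_normalizer_fintype fun a ha => ?_
      obtain ⟨k, rfl⟩ := mem_zpowers_iff.1 ha
      have h1 : c * x * c⁻¹ = x := by rw [mem_centralizer_singleton_iff.1 hc]; group
      rw [← conj_zpow, h1]
      exact zpow_mem (mem_zpowers x) k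
    obtain ⟨e, he⟩ := Subgroup.card_dvd_of_le hcN
    have h1 := hidx x hx
    rw [he, mul_comm] at h1
    have h2 : e ≤ m := Nat.le_of_mul_le_mul_right h1 Nat.card_pos
    have h3 : m ≤ r - 1 := Nat.le_of_dvd (by have := hr.two_le; omega) hm
    obtain ⟨i, hi, hi2⟩ := exists_not_conj hr hx he (by omega)
    refine ⟨i, fun h => ?_, hi2⟩
    exact hr.one_lt.ne' (Nat.dvd_one.1 (by rw [← (Nat.Coprime.symm hi : Nat.gcd r i = 1)]; exact Nat.dvd_gcd dvd_rfl h))

end Cfsg.Agent.H670.OneZ
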