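import Mathlib

/-!
# The torus of order `q² - 1` of `SL_3(F)`, `-1` not a square (helper670, S4842)

`Y` : the element of order four, `Z a` : an element with `(Z a)² = Y ^ (± 1)`.
* `card_cent_Y` : `|C(Y)| = q² - 1`;
* `comm_of_Y`   : `C(Y)` is abelian.
-/

set_option autoImplicit false

namespace Cfsg.Agent.H670.OneZ

open Matrix Subgroup

variable {F : Type*} [Field F]

/-- The element of order four. -/
def Y (F : Type*) [Field F] : SpecialLinearGroup (Fin 3) F :=
  ⟨!![0, -1, 0; 1, 0, 0; 0, 0, 1], by simp [det_fin_three]⟩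

/-- The general element of the torus. -/
def tor (a b d : F) : Matrix (Fin 3) (Fin 3) F := !![a, -b, 0; b, a, 0; 0, 0, d]

theorem tor_mul (a b d a' b' d' : F) : tor a b d * tor a' b' d' = tor (a * a' - b * b') (a * b' + b * a') (d * d') := by
  ext i j
  fin_cases i <;> fin_cases j <;> simp [tor, Matrix.mul_apply, Fin.sum_univ_three] <;> ring

theorem det_tor (a b d : F) : (tor a b d).det = (a * a + b * b) * d := by
  simp [tor, det_fin_three]
  ring

theorem tor_inj {a b d a' b' d' : F} (h : tor a b d = tor a' b' d') : a = a' ∧ b = b' ∧ d = d' := by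
  have h1 := congrFun (congrFun h 0) 0
  have h2 := congrFun (congrFun h 1) 0
  have h3 := congrFun (congrFun h 2) 2
  simp [tor] at h1 h2 h3
  exact ⟨h1, h2, h3⟩

theorem Y_coe : (Y F : Matrix (Fin 3) (Fin 3) F) = tor 0 1 1 := rfl

theorem mem_cent_Y (h2 : (2 : F) ≠ 0) (x : SpecialLinearGroup (Fin 3) F) :
    x ∈ centralizer ({Y F} : Set (SpecialLinearGroup (Fin 3) F)) ↔
      ∃ a b d : F, (x : Matrix (Fin 3) (Fin 3) F) = tor a b d := by
  rw [mem_centralizer_singleton_iff]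
  constructor
  · intro h
    have h0 : (x : Matrix (Fin 3) (Fin 3) F) * tor (F := F) 0 1 1 = tor (F := F) 0 1 1 * (x : Matrix (Fin 3) (Fin 3) F) :=
      congrArg Subtype.val h
    have e : ∀ i j, ((x : Matrix (Fin 3) (Fin 3) F) * tor (F := F) 0 1 1) i j =
        (tor (F := F) 0 1 1 * (x : Matrix (Fin 3) (Fin 3) F)) i j := fun i j => by rw [h0]
    have e00 := e 0 0
    have e01 := e 0 1
    have e02 := e 0 2
    have e12 := e 1 2
    have e20 := e 2 0
    have e21 := e 2 1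
    simp [tor, Matrix.mul_apply, Fin.sum_univ_three] at e00 e01 e02 e12 e20 e21
    have f02 : (x : Matrix (Fin 3) (Fin 3) F) 0 2 = 0 := by
      have : (2 : F) * (x : Matrix (Fin 3) (Fin 3) F) 0 2 = 0 := by linear_combination e02 - e12
      exact (mul_eq_zero.1 this).resolve_left h2
    have f12 : (x : Matrix (Fin 3) (Fin 3) F) 1 2 = 0 := by rw [e12, f02]
    have f20 : (x : Matrix (Fin 3) (Fin 3) F) 2 0 = 0 := by
      have : (2 : F) * (x : Matrix (Fin 3) (Fin 3) F) 2 0 = 0 := by linear_combination -e21 - e20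
      exact (mul_eq_zero.1 this).resolve_left h2
    have f21 : (x : Matrix (Fin 3) (Fin 3) F) 2 1 = 0 := by rw [e20, f20]
    refine ⟨(x : Matrix (Fin 3) (Fin 3) F) 0 0, (x : Matrix (Fin 3) (Fin 3) F) 1 0, (x : Matrix (Fin 3) (Fin 3) F) 2 2, ?_⟩
    ext i j
    fin_cases i <;> fin_cases j <;> simp [tor, e00, e01, f02, f12, f20, f21]
  · rintro ⟨a, b, d, h⟩
    apply Subtype.ext
    show (x : Matrix (Fin 3) (Fin 3) F) * tor (F := F) 0 1 1 = tor (F := F) 0 1 1 * (x : Matrix (Fin 3) (Fin 3) F)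
    rw [h, tor_mul, tor_mul]
    congr 1 <;> ring

theorem comm_of_Y (h2 : (2 : F) ≠ 0) {x y : SpecialLinearGroup (Fin 3) F}
    (hx : x ∈ centralizer ({Y F} : Set (SpecialLinearGroup (Fin 3) F)))
    (hy : y ∈ centralizer ({Y F} : Set (SpecialLinearGroup (Fin 3) F))) : x * y = y * x := by
  obtain ⟨a, b, d, h⟩ := (mem_cent_Y h2 x).1 hx
  obtain ⟨a', b', d', h'⟩ := (mem_cent_Y h2 y).1 hy
  apply Subtype.ext
  show (x : Matrix (Fin 3) (Fin 3) F) * y = y * x
  rw [h, h', tor_mul, tor_mul]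
  congr 1 <;> ring

theorem sq_add (hi : ∀ c : F, c * c ≠ -1) {a b : F} (h : ¬ (a = 0 ∧ b = 0)) : a * a + b * b ≠ 0 := by
  intro h0
  by_cases hb : b = 0
  · apply h
    rw [hb, mul_zero, add_zero] at h0
    exact ⟨mul_self_eq_zero.1 h0, hb⟩
  · apply hi (a / b)
    field_simp
    linear_combination h0

/-- `|C(Y)| = q² - 1` -/
theorem card_cent_Y [Finite F] (h2 : (2 : F) ≠ 0) (hi : ∀ c : F, c * c ≠ -1) :
    Nat.card (centralizer ({Y F} : Set (SpecialLinearGroup (Fin 3) F)) : Subgroup _) = Nat.card F ^ 2 - 1 := by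
  classical
  have := Fintype.ofFinite F
  let e : {v : F × F // v ≠ 0} → (centralizer ({Y F} : Set (SpecialLinearGroup (Fin 3) F)) : Subgroup _) := fun v =>
    ⟨⟨tor v.1.1 v.1.2 (v.1.1 * v.1.1 + v.1.2 * v.1.2)⁻¹, by
      rw [det_tor]
      refine mul_inv_cancel₀ (sq_add hi ?_)
      rintro ⟨h, h'⟩
      exact v.2 (Prod.ext h h')⟩, (mem_cent_Y h2 _).2 ⟨_, _, _, rfl⟩⟩
  have he : Function.Bijective e := by
    constructor
    · intro v w h
      have h1 : tor v.1.1 v.1.2 (v.1.1 * v.1.1 + v.1.2 * v.1.2)⁻¹ = tor w.1.1 w.1.2 (w.1.1 * w.1.1 + w.1.2 * w.1.2)⁻¹ :=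
        congrArg (fun x => (x.1 : SpecialLinearGroup (Fin 3) F).1) h
      obtain ⟨h3, h4, -⟩ := tor_inj h1
      exact Subtype.ext (Prod.ext h3 h4)
    · rintro ⟨x, hx⟩
      obtain ⟨a, b, d, h⟩ := (mem_cent_Y h2 x).1 hx
      have hd : (a * a + b * b) * d = 1 := by
        rw [← det_tor, ← h]
        exact x.2
      refine ⟨⟨(a, b), ?_⟩, ?_⟩
      · intro h0
        rw [Prod.mk_eq_zero] at h0
        rw [h0.1, h0.2] at hd
        simp at hd
      · apply Subtype.ext
        apply Subtype.ext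
        show tor a b (a * a + b * b)⁻¹ = (x : Matrix (Fin 3) (Fin 3) F)
        rw [h, inv_eq_of_mul_eq_one_right hd]
  rw [← Nat.card_congr (Equiv.ofBijective e he), Nat.card_eq_fintype_card, Fintype.card_subtype_compl,
    Fintype.card_prod, Fintype.card_subtype_eq, pow_two, Nat.card_eq_fintype_card]

theorem Y_sq_ne (h2 : (2 : F) ≠ 0) : Y F ^ 2 ∉ center (SpecialLinearGroup (Fin 3) F) := by
  intro h
  rw [Matrix.SpecialLinearGroup.mem_center_iff] at h
  obtain ⟨r, -, hr⟩ := h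
  have h1 : ((Y F ^ 2 : SpecialLinearGroup (Fin 3) F) : Matrix (Fin 3) (Fin 3) F) = tor (-1) 0 1 := by
    rw [pow_two]
    show tor 0 1 1 * tor 0 1 1 = tor (-1) 0 1
    rw [tor_mul]
    congr 1 <;> ring
  rw [h1] at hr
  have e0 := congrFun (congrFun hr 0) 0
  have e2 := congrFun (congrFun hr 2) 2
  simp [tor] at e0 e2
  rw [e2] at e0
  apply h2
  linear_combination e0

theorem Y_four : Y F ^ 4 = 1 := by
  apply Subtype.ext
  have h1 : ((Y F ^ 4 : SpecialLinearGroup (Fin 3) F) : Matrix (Fin 3) (Fin 3) F) = tor 1 0 1 := by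
    have : Y F ^ 4 = (Y F * Y F) * (Y F * Y F) := by
      rw [pow_succ, pow_succ, pow_two, ← mul_assoc]
    rw [this]
    show (tor 0 1 1 * tor 0 1 1) * (tor 0 1 1 * tor 0 1 1) = tor 1 0 1
    rw [tor_mul, tor_mul]
    congr 1 <;> ring
  rw [h1]
  ext i j
  fin_cases i <;> fin_cases j <;> simp [tor]

/-- An element with square `Y` or `Y⁻¹`. -/
theorem exists_Z [Finite F] (h2 : (2 : F) ≠ 0) (hi : ∀ c : F, c * c ≠ -1) :
    ∃ z : SpecialLinearGroup (Fin 3) F, z ^ 2 = Y F ∨ z ^ 2 = (Y F)⁻¹ := by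
  classical
  have := Fintype.ofFinite F
  have hs : ∃ (s e : F), (e = 1 ∨ e = -1) ∧ s * s = 2 * e := by
    by_cases hsq : IsSquare (2 : F)
    · obtain ⟨s, hs⟩ := hsq
      exact ⟨s, 1, Or.inl rfl, by rw [← hs, mul_one]⟩
    · have hc2 : ringChar F ≠ 2 := by
        intro h
        apply h2
        have : CharP F 2 := ringChar.of_eq h
        exact CharP.cast_eq_zero F 2
      have hm : ¬ IsSquare (-1 : F) := by
        rintro ⟨c, hc⟩
        exact hi c hc.symm
      have h3 : quadraticChar F (-2) = 1 := by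
        rw [show (-2 : F) = (-1) * 2 by ring, map_mul, quadraticChar_neg_one_iff_not_isSquare.2 hm,
          quadraticChar_neg_one_iff_not_isSquare.2 hsq]
        norm_num
      obtain ⟨s, hs⟩ := (quadraticChar_one_iff_isSquare (neg_ne_zero.2 h2)).1 h3
      exact ⟨s, -1, Or.inr rfl, by rw [← hs]; ring⟩
  obtain ⟨s, e, he, hse⟩ := hs
  set a := s / 2 with ha
  have hs2 : 2 * a = s := by
    rw [ha]
    field_simp
  have h3 : a * a + a * a = e := by
    apply mul_left_cancel₀ h2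
    linear_combination (2 * a + s) * hs2 + hse
  have hee : e * e = 1 := by rcases he with rfl | rfl <;> ring
  obtain ⟨z, hz⟩ : ∃ z : Matrix.SpecialLinearGroup (Fin 3) F, (z : Matrix (Fin 3) (Fin 3) F) = tor a a e :=
    ⟨⟨tor a a e, by rw [det_tor, h3, hee]⟩, rfl⟩
  refine ⟨z, ?_⟩
  have h4 : (z : Matrix (Fin 3) (Fin 3) F) * (z : Matrix (Fin 3) (Fin 3) F) = tor 0 e 1 := by
    rw [hz, tor_mul, h3, hee, sub_self]
  rcases he with rfl | rfl
  · left
    rw [pow_two]
    apply Subtype.ext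
    exact h4
  · right
    rw [pow_two, eq_inv_iff_mul_eq_one]
    apply Subtype.ext
    show ((z : Matrix (Fin 3) (Fin 3) F) * (z : Matrix (Fin 3) (Fin 3) F)) * tor 0 1 1 = 1
    rw [h4, tor_mul]
    ext i j
    fin_cases i <;> fin_cases j <;> simp [tor]

end Cfsg.Agent.H670.OneZ
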