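import Cfsg.Agent.H849.OZ.Bad
import Cfsg.Agent.H730.OZ.Top

/-!
# Two classes with the same centraliser order (helper670, S4842)

* `sum_dvd`, `dvd_deg` : the sum over the `p`-elements, if the classes of the nontrivial `p`-elements have size
  divisible by `N`;
* `isIntegral_div_pow` : divisibility of the values;
* `two_classes` : the excess inequality, for the elements with centraliser of order `c`.
-/

set_option autoImplicit false

namespace Cfsg.Agent.H670.OneZ

open Cfsg Cfsg.Agent.Characters Cfsg.Agent.H686.CharKit Cfsg.Agent.H732.VZ Cfsg.Agent.H604.OZ Cfsg.Agent.H730.OZ Finset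

universe u

variable {G : Type u} [Group G]

theorem isIntegral_int (a : ℤ) : IsIntegral ℤ (a : ℂ) := by
  simpa using isIntegral_algebraMap (R := ℤ) (A := ℂ) (x := a)

theorem isIntegral_nat (a : ℕ) : IsIntegral ℤ (a : ℂ) := by
  simpa using isIntegral_int (a : ℤ)

/-- A sum over a set of elements stable under conjugation, with class sizes divisible by `N`. -/
theorem sum_dvd [Fintype G] (χ : IrrCharacter G) (S : Finset G) (hS : ∀ g ∈ S, ∀ x : G, IsConj g x → x ∈ S) {N : ℕ}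
    (hN0 : N ≠ 0) (hN : ∀ g ∈ S, N ∣ (Subgroup.centralizer ({g} : Set G)).index) :
    IsIntegral ℤ ((∑ g ∈ S, (χ : G → ℂ) g) / N) := by
  classical
  have h1 : ∑ g ∈ S, (χ : G → ℂ) g = ∑ C ∈ S.image ConjClasses.mk, ∑ g ∈ S with ConjClasses.mk g = C, (χ : G → ℂ) g :=
    (Finset.sum_fiberwise_of_maps_to (fun g hg => mem_image_of_mem _ hg) _).symm
  rw [h1, Finset.sum_div]
  refine IsIntegral.sum _ fun C hC => ?_
  obtain ⟨g₀, hg₀, rfl⟩ := mem_image.1 hC
  have h2 : (S.filter fun g => ConjClasses.mk g = ConjClasses.mk g₀) = univ.filter fun g : G => IsConj g₀ g := by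
    ext g
    rw [mem_filter, mem_filter, ConjClasses.mk_eq_mk_iff_isConj]
    exact ⟨fun h => ⟨mem_univ _, h.2.symm⟩, fun h => ⟨hS g₀ hg₀ g h.2, h.2.symm⟩⟩
  have h3 : ∑ g ∈ S with ConjClasses.mk g = ConjClasses.mk g₀, (χ : G → ℂ) g =
      ((Subgroup.centralizer ({g₀} : Set G)).index : ℂ) * (χ : G → ℂ) g₀ := by
    rw [h2, Finset.sum_congr rfl (g := fun _ => (χ : G → ℂ) g₀), Finset.sum_const, nsmul_eq_mul,
      CentralCharacter.index_centralizer_eq_card, ← Fintype.card_subtype, ← Nat.card_eq_fintype_card]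
    intro g hg
    exact (Core.classFunction_apply_eq (Core.isIrr_isClassFunction χ.2) (mem_filter.1 hg).2).symm
  obtain ⟨d, hd⟩ := hN g₀ hg₀
  have h4 : (N : ℂ) ≠ 0 := by exact_mod_cast hN0
  rw [h3, hd]
  push_cast
  rw [mul_assoc, mul_div_cancel_left₀ _ h4]
  exact (isIntegral_nat d).mul (GaloisBasic.isIntegral_apply (Core.isIrr_isCharacter χ.2) g₀)

/-- Divisibility of the degree. -/
theorem dvd_deg [Finite G] (χ : IrrCharacter G) {p m N : ℕ} (hp : p ≠ 0) (hN0 : N ≠ 0)
    (hsum : ∑ᶠ u ∈ pSet p G, (χ : G → ℂ) u = (p : ℂ) ^ m * (χ : G → ℂ) 1)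
    (hN : ∀ u ∈ pSet p G, u ≠ 1 → N ∣ (Subgroup.centralizer ({u} : Set G)).index) :
    N ∣ (p ^ m - 1) * charDegree (χ : G → ℂ) := by
  classical
  have := Fintype.ofFinite G
  rw [finsum_pSet] at hsum
  have h1 : (1 : G) ∈ univ.filter (· ∈ pSet p G) := by
    rw [mem_filter]
    exact ⟨mem_univ _, 0, by simp⟩
  rw [← Finset.add_sum_erase _ _ h1] at hsum
  have h2 := sum_dvd χ ((univ.filter (· ∈ pSet p G)).erase 1) (by
    intro g hg x hgx
    rw [mem_erase, mem_filter] at hg ⊢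
    obtain ⟨hg1, -, i, hi⟩ := hg
    refine ⟨?_, mem_univ _, i, ?_⟩
    · rintro rfl
      apply hg1
      obtain ⟨c, hc⟩ := isConj_iff.1 hgx
      rwa [mul_inv_eq_one, mul_eq_left] at hc
    · rw [← hi, orderOf_eq_of_conj hgx]) hN0 (fun g hg => by
    rw [mem_erase, mem_filter] at hg
    exact hN g hg.2.2 hg.1)
  have h3 : ∑ g ∈ (univ.filter (· ∈ pSet p G)).erase 1, (χ : G → ℂ) g
      = (((p ^ m - 1) * charDegree (χ : G → ℂ) : ℕ) : ℂ) := by
    have h4 : 1 ≤ p ^ m := Nat.one_le_pow _ _ (Nat.pos_of_ne_zero hp)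
    rw [← charDegree_irr χ] at hsum
    push_cast [Nat.cast_sub h4]
    linear_combination hsum
  rw [h3] at h2
  obtain ⟨z, hz⟩ := GaloisBasic.exists_int_of_isIntegral h2
    ⟨(((p ^ m - 1) * charDegree (χ : G → ℂ) : ℕ) : ℚ) / N, by push_cast; rfl⟩
  have hNC : (N : ℂ) ≠ 0 := by exact_mod_cast hN0
  rw [div_eq_iff hNC] at hz
  have h5 : (((p ^ m - 1) * charDegree (χ : G → ℂ) : ℕ) : ℤ) = z * (N : ℤ) := by exact_mod_cast hz
  have h6 : (N : ℤ) ∣ (((p ^ m - 1) * charDegree (χ : G → ℂ) : ℕ) : ℤ) := ⟨z, by rw [h5, mul_comm]⟩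
  exact_mod_cast h6

/-- Divisibility of the values. -/
theorem isIntegral_div_pow [Finite G] (χ : IrrCharacter G) {r i j o : ℕ} (hr : r.Prime)
    (hdeg : r ^ (i + j) ∣ charDegree (χ : G → ℂ)) {g : G}
    (hg : (Subgroup.centralizer ({g} : Set G)).index = r ^ i * o) (ho : ¬ r ∣ o) :
    IsIntegral ℤ ((χ : G → ℂ) g / ((r ^ j : ℕ) : ℂ)) := by
  have hrC : (r : ℂ) ≠ 0 := by exact_mod_cast hr.ne_zero
  obtain ⟨d, hd⟩ := hdeg
  have hd0 : (d : ℂ) ≠ 0 := by
    have := charDegree_pos χ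
    rw [hd] at this
    have : d ≠ 0 := by rintro rfl; simp at this
    exact_mod_cast this
  have h1 : IsIntegral ℤ (((Subgroup.centralizer ({g} : Set G)).index : ℂ) * (χ : G → ℂ) g
      / (χ : G → ℂ) 1) := by
    obtain ⟨n, ρ, hρ, hχ⟩ := χ.2
    have := CentralCharacter.isIntegral_index_mul_character_div ρ g
    have hfin : (Module.finrank ℂ (Fin n → ℂ) : ℂ) = (χ : G → ℂ) 1 := by
      rw [← hχ, Representation.char_one]
    rw [hfin, hχ] at this
    exact this
  have h2 : IsIntegral ℤ ((o : ℂ) * ((χ : G → ℂ) g / ((r ^ j : ℕ) : ℂ))) := by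
    have h3 : (o : ℂ) * ((χ : G → ℂ) g / ((r ^ j : ℕ) : ℂ))
        = (d : ℂ) * (((Subgroup.centralizer ({g} : Set G)).index : ℂ) * (χ : G → ℂ) g
          / (χ : G → ℂ) 1) := by
      rw [← charDegree_irr χ, hd, hg]
      push_cast
      rw [pow_add]
      field_simp
    rw [h3]
    exact (isIntegral_nat d).mul h1
  have h4 : IsIntegral ℤ (((r ^ j : ℕ) : ℂ) * ((χ : G → ℂ) g / ((r ^ j : ℕ) : ℂ))) := by
    rw [mul_div_cancel₀ _ (by push_cast; exact pow_ne_zero _ hrC)]
    exact GaloisBasic.isIntegral_apply (Core.isIrr_isCharacter χ.2) g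
  have hcop : IsCoprime (o : ℤ) ((r ^ j : ℕ) : ℤ) :=
    Nat.isCoprime_iff_coprime.2 (((Nat.Prime.coprime_iff_not_dvd hr).2 ho).pow_left j).symm
  obtain ⟨a, b, hab⟩ := hcop
  have habC : (a : ℂ) * (o : ℂ) + b * ((r ^ j : ℕ) : ℂ) = 1 := by
    exact_mod_cast hab
  have h5 : (χ : G → ℂ) g / ((r ^ j : ℕ) : ℂ) = a * ((o : ℂ) * ((χ : G → ℂ) g / ((r ^ j : ℕ) : ℂ)))
      + b * (((r ^ j : ℕ) : ℂ) * ((χ : G → ℂ) g / ((r ^ j : ℕ) : ℂ))) := by
    linear_combination (-((χ : G → ℂ) g / ((r ^ j : ℕ) : ℂ))) * habC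
  rw [h5]
  exact ((isIntegral_int a).mul h2).add ((isIntegral_int b).mul h4)

/-- **Two classes** of elements with centraliser of order `c`, values divisible by `r ≥ 2`. -/
theorem two_classes [Finite G] {χ : IrrCharacter G} {x : G} (h : One χ x) {c r : ℕ} (hr : 2 ≤ r)
    (hint : ∀ g : G, cent g = c → IsIntegral ℤ ((χ : G → ℂ) g / r)) {y z : G} (hy : cent y = c) (hz : cent z = c)
    (hyz : ¬ IsConj y z) : 2 * cent x * (r ^ 2 - 1) ≤ c := by
  classical
  have := Fintype.ofFinite G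
  set Z : Finset G := univ.filter fun g : G => (χ : G → ℂ) g = 0 with hZ
  set Y₀ : Finset G := univ.filter fun g : G => cent g = c with hY₀
  have hgal : H695.OneZero.Gal Y₀ := by
    intro g hg k hk
    rw [hY₀, mem_filter] at hg ⊢
    exact ⟨mem_univ _, by rw [H849.OZ.card_centralizer_pow hk, hg.2]⟩
  have hgal' : H695.OneZero.Gal (Y₀ ∩ Zᶜ) := hgal.inter (H695.OneZero.gal_zero χ).compl
  have h1 := excess χ hgal' (fun g hg h0 => by
    rw [mem_inter, mem_compl, hZ] at hg
    exact hg.2 (mem_filter.2 ⟨mem_univ _, h0⟩)) (r := r) (by omega) (fun g hg => by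
    rw [mem_inter, hY₀, mem_filter] at hg
    exact hint g hg.1.2)
  rw [← hZ] at h1
  have h2 := card_zeros h
  rw [← hZ] at h2
  have hcl : ∀ g : G, cent g = c → (univ.filter fun y : G => IsConj g y).card * c = Nat.card G := by
    intro g hg
    rw [← hg]
    exact H849.OZ.card_class g
  have hin : ∀ g : G, cent g = c → (univ.filter fun y : G => IsConj g y) ⊆ Y₀ := by
    intro g hg y hy'
    rw [mem_filter] at hy'
    rw [hY₀, mem_filter]
    refine ⟨mem_univ _, ?_⟩
    have h3 := hcl g hg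
    have h4 : (univ.filter fun y' : G => IsConj g y') = univ.filter fun y' : G => IsConj y y' := by
      ext w
      rw [mem_filter, mem_filter]
      exact ⟨fun hw => ⟨mem_univ _, hy'.2.symm.trans hw.2⟩, fun hw => ⟨mem_univ _, hy'.2.trans hw.2⟩⟩
    rw [h4] at h3
    have h5 := H849.OZ.card_class y
    have h6 : 0 < (univ.filter fun y' : G => IsConj y y').card := by
      rw [card_pos]
      exact ⟨y, by rw [mem_filter]; exact ⟨mem_univ _, IsConj.refl y⟩⟩
    exact Nat.eq_of_mul_eq_mul_left h6 (h5.trans h3.symm)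
  have hzx : ∀ g ∈ Z, IsConj x g := fun g hg => h.uniq g (mem_filter.1 hg).2
  have hsub : ∀ g : G, cent g = c → ¬ IsConj x g → (univ.filter fun y : G => IsConj g y) ⊆ Y₀ ∩ Zᶜ := by
    intro g hg hxg w hw
    rw [mem_inter, mem_compl]
    refine ⟨hin g hg hw, fun hwZ => hxg ?_⟩
    rw [mem_filter] at hw
    exact (hzx w hwZ).trans hw.2.symm
  have hG0 : 0 < Nat.card G := Nat.card_pos
  have hc0 : 0 < c := by rw [← hy]; exact Nat.card_pos
  have hr2 : 2 ^ 2 ≤ r ^ 2 := Nat.pow_le_pow_left hr 2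
  obtain ⟨s, hs⟩ : ∃ s, r ^ 2 = s + 1 := ⟨r ^ 2 - 1, by omega⟩
  rw [hs] at h1
  have h1' : (Y₀ ∩ Zᶜ).card * s ≤ Z.card := by
    rw [mul_add, mul_one] at h1
    omega
  by_cases hxc : cent x = c
  · -- one of the two classes
    exfalso
    obtain ⟨g, hg, hxg⟩ : ∃ g : G, cent g = c ∧ ¬ IsConj x g := by
      by_cases h' : IsConj x y
      · exact ⟨z, hz, fun h'' => hyz (h'.symm.trans h'')⟩
      · exact ⟨y, hy, h'⟩
    have h3 := Finset.card_le_card (hsub g hg hxg)
    have h4 := hcl g hg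
    have h5 : (univ.filter fun y : G => IsConj g y).card = Z.card := by
      apply Nat.eq_of_mul_eq_mul_right hc0
      rw [h4, ← h2]
      exact congrArg (Z.card * ·) hxc
    have h6 : 0 < Z.card := by
      rw [card_pos]
      exact ⟨x, by rw [hZ, mem_filter]; exact ⟨mem_univ _, h.zero⟩⟩
    rw [h5] at h3
    have h7 : Z.card * s ≤ Z.card := (Nat.mul_le_mul_right s h3).trans h1'
    have h8 : s ≤ 1 := by
      by_contra hlt
      have : Z.card * 2 ≤ Z.card * s := Nat.mul_le_mul_left _ (by omega)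
      omega
    omega
  · have hxg : ∀ g : G, cent g = c → ¬ IsConj x g := by
      intro g hg hx
      apply hxc
      have h3 := hin g hg (show x ∈ _ by rw [mem_filter]; exact ⟨mem_univ _, hx.symm⟩)
      exact (mem_filter.1 h3).2
    have hdis : Disjoint (univ.filter fun w : G => IsConj y w) (univ.filter fun w : G => IsConj z w) := by
      rw [Finset.disjoint_left]
      intro w hw hw'
      rw [mem_filter] at hw hw'
      exact hyz (hw.2.trans hw'.2.symm)
    have h3 := Finset.card_le_card (union_subset (hsub y hy (hxg y hy)) (hsub z hz (hxg z hz)))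
    rw [card_union_of_disjoint hdis] at h3
    have h4 : 2 * Nat.card G ≤ (Y₀ ∩ Zᶜ).card * c := by
      have h5 := Nat.mul_le_mul_right c h3
      rw [add_mul, hcl y hy, hcl z hz] at h5
      omega
    have h5 : (r ^ 2 - 1) = s := by omega
    rw [h5]
    have h6 : 2 * Nat.card G * s ≤ Z.card * c := by
      calc 2 * Nat.card G * s ≤ (Y₀ ∩ Zᶜ).card * c * s := Nat.mul_le_mul_right s h4
        _ = (Y₀ ∩ Zᶜ).card * s * c := by ring
        _ ≤ Z.card * c := Nat.mul_le_mul_right c h1'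
    have h7 : 0 < Z.card := by
      rw [card_pos]
      exact ⟨x, by rw [hZ, mem_filter]; exact ⟨mem_univ _, h.zero⟩⟩
    apply Nat.le_of_mul_le_mul_left _ h7
    calc Z.card * (2 * cent x * s) = 2 * (Z.card * cent x) * s := by ring
      _ = 2 * Nat.card G * s := by
          have h8 : Z.card * cent x = Nat.card G := h2
          rw [h8]
      _ ≤ Z.card * c := h6

end Cfsg.Agent.H670.OneZ
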