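import Mathlib

/-!
# Unipotent elements of `SL_3(F)` (helper670, S4842, `PSL_3(p)`, `p` a Mersenne prime)

`not_four` : `F` of odd characteristic, `-1` not a square: a subgroup of order four of `SL_3(F)` does not centralise
a nonzero nilpotent matrix.
-/

set_option autoImplicit false

namespace Cfsg.Agent.H670.OneZ

open Matrix Module

variable {F : Type*} [Field F]

abbrev M3 (F : Type*) [Field F] := Matrix (Fin 3) (Fin 3) F

/-- A matrix of rank at most one. -/
theorem exists_vec {A : M3 F} (h : finrank F (LinearMap.range A.mulVecLin) ≤ 1) :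
    ∃ a b : Fin 3 → F, A = vecMulVec a b := by
  obtain ⟨v, hv⟩ := finrank_le_one_iff.1 h
  have h1 : ∀ j : Fin 3, ∃ c : F, c • (v : Fin 3 → F) = A.mulVecLin (Pi.single j 1) := fun j => by
    obtain ⟨c, hc⟩ := hv ⟨A.mulVecLin (Pi.single j 1), LinearMap.mem_range_self _ _⟩
    exact ⟨c, congrArg Subtype.val hc⟩
  choose b hb using h1
  refine ⟨v, b, ?_⟩
  ext i j
  have h2 := congrFun (hb j) i
  rw [mulVecLin_apply, mulVec_single_one] at h2
  rw [vecMulVec_apply, mul_comm]
  simpa using h2.symm

/-- The ranks of two matrices with product zero. -/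
theorem rank_of_mul {A B : M3 F} (h : A * B = 0) :
    finrank F (LinearMap.range A.mulVecLin) + finrank F (LinearMap.range B.mulVecLin) ≤ 3 := by
  have h1 : LinearMap.range B.mulVecLin ≤ LinearMap.ker A.mulVecLin := by
    rintro _ ⟨w, rfl⟩
    rw [LinearMap.mem_ker, mulVecLin_apply, mulVecLin_apply, mulVec_mulVec, h, zero_mulVec]
  have h2 := Submodule.finrank_mono h1
  have h3 := LinearMap.finrank_range_add_finrank_ker A.mulVecLin
  rw [finrank_fin_fun] at h3
  omega

/-- A matrix of square zero. -/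
theorem exists_vec_sq {M : M3 F} (h : M * M = 0) : ∃ a b : Fin 3 → F, M = vecMulVec a b := by
  have := rank_of_mul h
  exact exists_vec (by omega)

theorem det_one_add_vec (a b : Fin 3 → F) : (1 + vecMulVec a b).det = 1 + b ⬝ᵥ a := by
  have h : vecMulVec a b = replicateCol Unit a * replicateRow Unit b := by
    ext i j
    simp [vecMulVec_apply, Matrix.mul_apply]
  rw [h, det_one_add_replicateCol_mul_replicateRow]

/-- An involution of determinant one. -/
theorem inv_vec (h2 : (2 : F) ≠ 0) {t : M3 F} (ht : t * t = 1) (hd : t.det = 1) (h1 : t ≠ 1) :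
    ∃ a b : Fin 3 → F, t + 1 = vecMulVec a b := by
  have h3 : (t - 1) * (t + 1) = 0 := by
    rw [sub_mul, mul_add, ht, one_mul, mul_one]
    abel
  have h4 := rank_of_mul h3
  by_cases h5 : finrank F (LinearMap.range (t - 1).mulVecLin) ≤ 1
  · exfalso
    obtain ⟨a, b, hab⟩ := exists_vec h5
    have h6 : t = 1 + vecMulVec a b := by rw [← hab]; abel
    have h7 : b ⬝ᵥ a = 0 := by
      have := det_one_add_vec a b
      rw [← h6, hd] at this
      linear_combination -this
    have h8 : (t - 1) * (t - 1) = 0 := by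
      rw [hab, vecMulVec_mul_vecMulVec, h7, zero_smul]
      ext i j
      simp [vecMulVec_apply]
    have h9 : (2 : F) • (t - 1) = 0 := by
      have h10 : (t - 1) * (t - 1) = -((2 : F) • (t - 1)) := by
        rw [sub_mul, mul_sub, ht, one_mul, mul_one, two_smul]
        abel
      rw [← neg_eq_zero, ← h10, h8]
    rcases smul_eq_zero.1 h9 with h | h
    · exact h2 h
    · exact h1 (sub_eq_zero.1 h)
  · exact exists_vec (by omega)

/-- An involution commuting with `M`, `M² = 0`. -/
theorem inv_mul_eq (h2 : (2 : F) ≠ 0) {t M : M3 F} (ht : t * t = 1) (hd : t.det = 1) (h1 : t ≠ 1)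
    (hM : M * M = 0) (hc : t * M = M * t) : t * M = -M := by
  obtain ⟨a, b, hab⟩ := inv_vec h2 ht hd h1
  set A := t + 1 with hA
  have hAM : A * M = M * A := by rw [hA, add_mul, mul_add, hc, one_mul, mul_one]
  have h3 : A * A = (2 : F) • A := by
    rw [hA, mul_add, add_mul, ht, mul_one, one_mul, two_smul]
    abel
  have h4 : A * M * A = (b ⬝ᵥ (M *ᵥ a)) • A := by
    rw [mul_assoc, hab, mul_vecMulVec, vecMulVec_mul_vecMulVec]
    ext i j
    simp only [vecMulVec_apply, Matrix.smul_apply, Pi.smul_apply, smul_eq_mul]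
    ring
  have h5 : (b ⬝ᵥ (M *ᵥ a)) • (A * M) = 0 := by
    rw [← smul_mul_assoc, ← h4, mul_assoc (A * M), mul_assoc A M, ← mul_assoc M A M, ← hAM, mul_assoc A M M, hM,
      mul_zero, mul_zero]
  have h6 : A * M = 0 := by
    rcases smul_eq_zero.1 h5 with h | h
    · rw [h, zero_smul, mul_assoc, ← hAM, ← mul_assoc, h3, smul_mul_assoc] at h4
      rcases smul_eq_zero.1 h4 with h7 | h7
      · exact absurd h7 h2
      · exact h7
    · exact h
  rw [hA, add_mul, one_mul] at h6
  exact eq_neg_of_add_eq_zero_left h6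

/-- A nilpotent matrix has a nonzero power of square zero. -/
theorem exists_sq_zero {N : M3 F} (hN : IsNilpotent N) (h0 : N ≠ 0) :
    ∃ i : ℕ, N ^ i ≠ 0 ∧ N ^ i * N ^ i = 0 := by
  classical
  have h1 : ∃ n, N ^ n = 0 := hN
  have h2 : N ^ (Nat.find h1) = 0 := Nat.find_spec h1
  have h3 : 2 ≤ Nat.find h1 := by
    by_contra h
    have h4 : Nat.find h1 = 0 ∨ Nat.find h1 = 1 := by omega
    rcases h4 with h4 | h4
    · rw [h4, pow_zero] at h2
      exact one_ne_zero h2
    · rw [h4, pow_one] at h2
      exact h0 h2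
  refine ⟨Nat.find h1 - 1, Nat.find_min h1 (by omega), ?_⟩
  rw [← pow_add]
  exact pow_eq_zero_of_le (by omega) h2

/-- **Subgroups of order four do not centralise a nonzero nilpotent matrix.** -/
theorem not_four (h2 : (2 : F) ≠ 0) (hi : ∀ c : F, c * c ≠ -1) {N : M3 F} (hN : IsNilpotent N) (h0 : N ≠ 0)
    (H : Subgroup (SpecialLinearGroup (Fin 3) F)) (hH : Nat.card H = 4)
    (hc : ∀ h ∈ H, (h : M3 F) * N = N * h) : False := by
  obtain ⟨i, hM0, hMM⟩ := exists_sq_zero hN h0
  set M := N ^ i with hM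
  have hcM : ∀ h ∈ H, (h : M3 F) * M = M * h := fun h hh => (Commute.pow_right (hc h hh) i).eq
  -- involutions
  have key : ∀ t ∈ H, t * t = 1 → t ≠ 1 → (t : M3 F) * M = -M := by
    intro t ht htt ht1
    refine inv_mul_eq h2 ?_ t.2 ?_ hMM (hcM t ht)
    · have := congrArg (fun x : SpecialLinearGroup (Fin 3) F => (x : M3 F)) htt
      simpa using this
    · intro h
      exact ht1 (Subtype.ext h)
  have hneg : ∀ X : M3 F, X = -X → X = 0 := by
    intro X hX
    have : (2 : F) • X = 0 := by
      rw [two_smul]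
      nth_rewrite 1 [hX]
      exact neg_add_cancel X
    rcases smul_eq_zero.1 this with h | h
    · exact absurd h h2
    · exact h
  have h4 : ∀ h : SpecialLinearGroup (Fin 3) F, h ∈ H → h ^ 4 = 1 := by
    intro h hh
    have := pow_card_eq_one' (x := (⟨h, hh⟩ : H))
    rw [hH] at this
    exact congrArg Subtype.val this
  -- no element of order four
  have h5 : ∀ h ∈ H, h * h = 1 := by
    intro h hh
    by_contra hne
    have h6 : (h * h) * (h * h) = 1 := by
      have := h4 h hh
      rw [← this, pow_succ, pow_succ, pow_two, ← mul_assoc]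
    have h7 := key (h * h) (H.mul_mem hh hh) h6 hne
    obtain ⟨a, b, hab⟩ := exists_vec_sq hMM
    have ha : a ≠ 0 := by
      rintro rfl
      apply hM0
      rw [hab]
      ext i j
      simp [vecMulVec_apply]
    have hb : ∃ j, b j ≠ 0 := by
      by_contra hb
      push Not at hb
      apply hM0
      rw [hab]
      ext i j
      simp [vecMulVec_apply, hb]
    obtain ⟨j, hj⟩ := hb
    have h8 : ∃ α : F, (h : M3 F) *ᵥ a = α • a := by
      have h9 := hcM h hh
      rw [hab, mul_vecMulVec, vecMulVec_mul] at h9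
      refine ⟨(b ᵥ* (h : M3 F)) j / b j, ?_⟩
      ext i
      have h10 := congrFun (congrFun h9 i) j
      rw [vecMulVec_apply, vecMulVec_apply] at h10
      rw [Pi.smul_apply, smul_eq_mul]
      field_simp
      rw [h10]
      ring
    obtain ⟨α, hα⟩ := h8
    have h11 : (h : M3 F) *ᵥ ((h : M3 F) *ᵥ a) = (α * α) • a := by
      rw [hα, mulVec_smul, hα, smul_smul]
    have h12 : (α * α) • a = -a := by
      rw [← h11, mulVec_mulVec]
      have h13 : ((h : M3 F) * (h : M3 F)) * M = -M := h7
      rw [hab, mul_vecMulVec] at h13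
      ext i
      have h14 := congrFun (congrFun h13 i) j
      rw [vecMulVec_apply, Matrix.neg_apply, vecMulVec_apply, ← neg_mul] at h14
      exact mul_right_cancel₀ hj h14
    obtain ⟨i', hi'⟩ := Function.ne_iff.1 ha
    have h15 := congrFun h12 i'
    rw [Pi.smul_apply, smul_eq_mul, Pi.neg_apply, ← neg_one_mul] at h15
    exact hi α (mul_right_cancel₀ hi' h15)
  -- two involutions
  have h6 : ∃ t ∈ H, t ≠ 1 := by
    by_contra h
    push Not at h
    have : H = ⊥ := by
      rw [eq_bot_iff]
      intro x hx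
      rw [Subgroup.mem_bot]
      exact h x hx
    rw [this, Subgroup.card_bot] at hH
    omega
  obtain ⟨t, ht, ht1⟩ := h6
  have h7 : ∃ s ∈ H, s ∉ Subgroup.zpowers t := by
    by_contra h
    push Not at h
    have h8 : H ≤ Subgroup.zpowers t := h
    have h9 := Subgroup.card_dvd_of_le h8
    rw [hH, Nat.card_zpowers] at h9
    have h10 : orderOf t ∣ 2 := orderOf_dvd_of_pow_eq_one (by rw [pow_two]; exact h5 t ht)
    have h11 := Nat.le_of_dvd (by norm_num) (h9.trans h10)
    omega
  obtain ⟨s, hs, hst⟩ := h7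
  have hs1 : s ≠ 1 := by
    rintro rfl
    exact hst (Subgroup.one_mem _)
  have hts : t * s ≠ 1 := by
    intro h
    apply hst
    rw [eq_inv_of_mul_eq_one_right h]
    exact Subgroup.inv_mem _ (Subgroup.mem_zpowers t)
  have e1 := key t ht (h5 t ht) ht1
  have e2 := key s hs (h5 s hs) hs1
  have e3 : ((t : M3 F) * (s : M3 F)) * M = -M := key (t * s) (H.mul_mem ht hs) (h5 _ (H.mul_mem ht hs)) hts
  rw [mul_assoc, e2, mul_neg, e1, neg_neg] at e3
  exact hM0 (hneg M e3)

end Cfsg.Agent.H670.OneZ
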