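import Cfsg.Agent.H670.OneZ.PslMain
import Cfsg.Agent.H670.OneZ.TwoCls
import Cfsg.Agent.H670.OneZ.Unip
import Cfsg.Agent.H670.OneZ.TorusTwo

/-!
# S4842 for `PSL_3(p)`, `p` a Mersenne prime (helper670)

The sum over the `p`-elements is `p³ χ(1)` by the primitive prime divisors of `p³ - 1`.  With `p + 1 = 2 ^ k`:
the classes of the nontrivial `p`-elements have sizes divisible by `2 ^ (k + 1)`, hence `2 ^ k ∣ χ(1)`; the elements
with centraliser of order `(p² - 1) / gcd(3, p - 1)` have values divisible by `2 ^ (k - 1)` : excess inequality.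
-/

set_option autoImplicit false

namespace Cfsg.Agent.H670.OneZ

open Subgroup Matrix Cfsg Cfsg.Agent.H732.VZ Cfsg.Agent.H889.PDL Cfsg.Agent.H730.OZ Cfsg.Agent.H604.OZ
open Cfsg.Agent.Characters Cfsg.Agent.H686.CharKit
open Cfsg.Agent.ClassicalGeometry.AutPSL.Root (pr pr_surjective)
open Cfsg.Agent.H999.RowPSL (Prim ker_pr)

section quot

variable {L X : Type*} [Group L] [Group X] [Finite L] {π : L →* X}

omit [Finite L] in
theorem commute_lift (hk : π.ker ≤ center L) {g : L} {m : ℕ} (hg : g ^ m = 1) (hm : m.Coprime (Nat.card π.ker))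
    {a : L} (h : π a * π g = π g * π a) : a * g = g * a := by
  set c := a * g * a⁻¹ * g⁻¹ with hc
  have h1 : c ∈ π.ker := by
    rw [MonoidHom.mem_ker, hc, map_mul, map_mul, map_mul, map_inv, map_inv, h]
    group
  have h2 : a * g * a⁻¹ = c * g := by rw [hc]; group
  have h3 : c ^ m = 1 := by
    have h4 : Commute c g := (mem_center_iff.1 (hk h1) g).symm
    have h5 : (a * g * a⁻¹) ^ m = 1 := by rw [conj_pow, hg, mul_one, mul_inv_cancel]
    rwa [h2, h4.mul_pow, hg, mul_one] at h5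
  have h4 : c ^ Nat.card π.ker = 1 := by
    have := pow_card_eq_one' (x := (⟨c, h1⟩ : π.ker))
    exact congrArg Subtype.val this
  have h5 : c = 1 := by
    rw [← orderOf_eq_one_iff]
    exact Nat.eq_one_of_dvd_coprimes hm (orderOf_dvd_of_pow_eq_one h3) (orderOf_dvd_of_pow_eq_one h4)
  rw [h5, one_mul] at h2
  exact mul_inv_eq_iff_eq_mul.1 h2

theorem card_cent_quot (hπ : Function.Surjective π) (hk : π.ker ≤ center L) {g : L} {m : ℕ} (hg : g ^ m = 1)
    (hm : m.Coprime (Nat.card π.ker)) : Nat.card (centralizer ({π g} : Set X)) * Nat.card π.ker =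
      Nat.card (centralizer ({g} : Set L)) := by
  have : Finite X := Finite.of_surjective π hπ
  have h1 : centralizer ({g} : Set L) = (centralizer ({π g} : Set X)).comap π := by
    ext a
    rw [mem_comap, mem_centralizer_singleton_iff, mem_centralizer_singleton_iff]
    exact ⟨fun h => by rw [← map_mul, h, map_mul], fun h => commute_lift hk hg hm h⟩
  have h2 := index_comap_of_surjective (centralizer ({π g} : Set X)) hπ
  rw [← h1] at h2
  have h3 := card_mul_index (centralizer ({π g} : Set X))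
  have h4 := card_mul_index (centralizer ({g} : Set L))
  have h5 := card_mul_index π.ker
  have h6 : π.ker.index = Nat.card X := by
    rw [index_ker, MonoidHom.range_eq_top.2 hπ, card_top]
  have h7 : 0 < (centralizer ({π g} : Set X)).index := Nat.pos_of_ne_zero index_ne_zero_of_finite
  apply Nat.eq_of_mul_eq_mul_right h7
  rw [h2] at h4
  rw [h4, ← h5, h6, ← h3]
  ring

omit [Finite L] in
theorem exists_lift (hπ : Function.Surjective π) {x : X} {m : ℕ} (hx : x ^ m = 1) (hm : m.Coprime (Nat.card π.ker)) :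
    ∃ g : L, π g = x ∧ g ^ m = 1 := by
  obtain ⟨g₀, rfl⟩ := hπ x
  obtain ⟨j, hj1, hj2⟩ := Nat.chineseRemainder hm 1 0
  refine ⟨g₀ ^ j, ?_, ?_⟩
  · rw [map_pow]
    conv_rhs => rw [← pow_one (π g₀)]
    rw [pow_eq_pow_iff_modEq]
    exact Nat.ModEq.of_dvd (orderOf_dvd_of_pow_eq_one hx) hj1
  · have h1 : g₀ ^ m ∈ π.ker := by rw [MonoidHom.mem_ker, map_pow, hx]
    obtain ⟨i, hi⟩ := (Nat.modEq_zero_iff_dvd).1 hj2
    have h2 : (g₀ ^ m) ^ Nat.card π.ker = 1 := by
      have := pow_card_eq_one' (x := (⟨g₀ ^ m, h1⟩ : π.ker))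
      exact congrArg Subtype.val this
    rw [← pow_mul, mul_comm, pow_mul, hi, pow_mul, h2, one_pow]

end quot

universe v

variable {F : Type v} [Field F] [Fintype F] {p k : ℕ}

section facts

variable (hp : p.Prime) (hF : Fintype.card F = p) (hk : 2 ≤ k) (hm : p + 1 = 2 ^ k)

include hp hF hk hm in
theorem two_ne : (2 : F) ≠ 0 := by
  intro h
  have h1 : CharP F p := by
    have : Fact p.Prime := ⟨hp⟩
    exact charP_of_card_eq_prime_pow (f := 1) (by rw [pow_one]; exact hF)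
  have h2 : p ∣ 2 := (CharP.cast_eq_zero_iff F p 2).1 (by exact_mod_cast h)
  have h3 := Nat.le_of_dvd (by norm_num) h2
  have h4 : 2 ^ 2 ≤ 2 ^ k := Nat.pow_le_pow_right (by norm_num) hk
  omega

include hF hk hm in
theorem neg_one_ne (c : F) : c * c ≠ -1 := by
  intro h
  have h1 : IsSquare (-1 : F) := ⟨c, h.symm⟩
  rw [FiniteField.isSquare_neg_one_iff, hF] at h1
  obtain ⟨j, rfl⟩ := Nat.exists_eq_add_of_le' hk
  rw [pow_add] at hm
  omega

include hp hF in
theorem zz_coprime_char (i : ℕ) : (p ^ i).Coprime (zz 3 F) := by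
  rw [zz_eq (by norm_num), Nat.card_eq_fintype_card, hF]
  refine Nat.Coprime.pow_left i ((Nat.Prime.coprime_iff_not_dvd hp).2 fun h => ?_)
  have h1 := h.trans (Nat.gcd_dvd_right _ _)
  have h2 := Nat.le_of_dvd (by have := hp.two_le; omega) h1
  have := hp.two_le
  omega

theorem zz_odd : ¬ 2 ∣ zz 3 F := by
  rw [zz_eq (by norm_num)]
  intro h
  have := h.trans (Nat.gcd_dvd_left _ _)
  omega

theorem zz_coprime_two (i : ℕ) : (2 ^ i).Coprime (zz 3 F) :=
  Nat.Coprime.pow_left i ((Nat.Prime.coprime_iff_not_dvd Nat.prime_two).2 zz_odd)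

include hp hF hk hm in
theorem cent_Y : cent (pr (Y F) : PS 3 F) * zz 3 F = p ^ 2 - 1 := by
  have h1 := card_cent_quot (π := (pr : Matrix.SpecialLinearGroup (Fin 3) F →* _)) pr_surjective (by rw [ker_pr])
    (Y_four (F := F)) (by rw [ker_pr]; exact zz_coprime_two 2)
  rw [ker_pr, card_cent_Y (two_ne hp hF hk hm) (neg_one_ne hF hk hm),
    show Nat.card F = p by rw [Nat.card_eq_fintype_card, hF]] at h1
  exact h1

include hp hF hk hm in
theorem exists_z : ∃ z : PS 3 F, cent z = cent (pr (Y F) : PS 3 F) ∧ ¬ IsConj (pr (Y F)) z := by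
  have h2 := two_ne hp hF hk hm
  obtain ⟨z, hz⟩ := exists_Z h2 (neg_one_ne hF hk hm)
  have hzc : z ∈ centralizer ({Y F} : Set (Matrix.SpecialLinearGroup (Fin 3) F)) := by
    rw [mem_centralizer_singleton_iff]
    rcases hz with h | h
    · rw [← h, ← pow_succ, ← pow_succ']
    · have hy : Y F = (z ^ 2)⁻¹ := by rw [h, inv_inv]
      rw [hy]
      exact ((Commute.refl z).pow_right 2).inv_right.eq
  have h1 : centralizer ({(pr z : PS 3 F)} : Set (PS 3 F)) = centralizer {(pr (Y F) : PS 3 F)} := by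
    ext a
    rw [mem_centralizer_singleton_iff, mem_centralizer_singleton_iff]
    constructor
    · intro h
      have h3 : Commute a ((pr z : PS 3 F) ^ 2) := (show Commute a (pr z) from h).pow_right 2
      rw [← map_pow] at h3
      rcases hz with hz | hz
      · rw [hz] at h3
        exact h3
      · rw [hz, map_inv] at h3
        exact (Commute.inv_right_iff.1 h3)
    · intro h
      obtain ⟨a, rfl⟩ := pr_surjective a
      have h3 := commute_lift (π := (pr : Matrix.SpecialLinearGroup (Fin 3) F →* _)) (by rw [ker_pr])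
        (Y_four (F := F)) (by rw [ker_pr]; exact zz_coprime_two 2) h
      rw [← map_mul, ← map_mul, comm_of_Y h2 (mem_centralizer_singleton_iff.2 h3) hzc]
  refine ⟨pr z, by rw [cent, h1], fun hc => ?_⟩
  have h3 : (pr z : PS 3 F) ^ 4 = 1 := by
    obtain ⟨c, hc⟩ := isConj_iff.1 hc
    rw [← hc, conj_pow, ← map_pow, Y_four, map_one, mul_one, mul_inv_cancel]
  rw [← map_pow] at h3
  have h4 : z ^ 4 ∈ (pr : Matrix.SpecialLinearGroup (Fin 3) F →* _).ker := h3
  rw [ker_pr, show (4 : ℕ) = 2 * 2 by norm_num, pow_mul] at h4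
  rcases hz with h | h
  · rw [h] at h4
    exact Y_sq_ne h2 h4
  · rw [h, inv_pow, inv_mem_iff] at h4
    exact Y_sq_ne h2 h4

include hp hF hk hm in
theorem not_four_cent {u : PS 3 F} (hu : u ∈ pSet p (PS 3 F)) (hu1 : u ≠ 1) : ¬ 4 ∣ cent u := by
  intro h4
  have : Fact p.Prime := ⟨hp⟩
  have : Fact (Nat.Prime 2) := ⟨Nat.prime_two⟩
  have hch : CharP F p := charP_of_card_eq_prime_pow (f := 1) (by rw [pow_one]; exact hF)
  obtain ⟨i, hi⟩ := hu
  obtain ⟨g, rfl, hg⟩ := exists_lift (π := (pr : Matrix.SpecialLinearGroup (Fin 3) F →* _)) pr_surjective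
    (x := u) (m := p ^ i) (by rw [← hi, pow_orderOf_eq_one]) (by rw [ker_pr]; exact zz_coprime_char hp hF i)
  have h1 := card_cent_quot (π := (pr : Matrix.SpecialLinearGroup (Fin 3) F →* _)) pr_surjective (by rw [ker_pr])
    hg (by rw [ker_pr]; exact zz_coprime_char hp hF i)
  have h2 : 2 ^ 2 ∣ Nat.card (centralizer ({g} : Set (Matrix.SpecialLinearGroup (Fin 3) F))) := by
    rw [← h1]
    exact (show 2 ^ 2 ∣ _ from h4).mul_right _
  obtain ⟨K, hK⟩ := Sylow.exists_subgroup_card_pow_prime 2 h2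
  have hN : IsNilpotent ((g : M3 F) - 1) := by
    refine ⟨p ^ i, ?_⟩
    rw [sub_pow_char_pow_of_commute _ _ (Commute.one_right _), one_pow]
    have h3 : ((g ^ p ^ i : Matrix.SpecialLinearGroup (Fin 3) F) : M3 F) = (g : M3 F) ^ p ^ i :=
      Matrix.SpecialLinearGroup.coe_pow _ _
    rw [← h3, hg]
    exact sub_self _
  have hN0 : (g : M3 F) - 1 ≠ 0 := by
    intro h3
    apply hu1
    have h5 : g = 1 := Subtype.ext (sub_eq_zero.1 h3)
    rw [h5, map_one]
  refine not_four (two_ne hp hF hk hm) (neg_one_ne hF hk hm) hN hN0 (K.map (Subgroup.subtype _)) ?_ ?_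
  · rw [Nat.card_congr (K.equivMapOfInjective _ (Subgroup.subtype_injective _)).toEquiv.symm, hK]
    norm_num
  · rintro _ ⟨h, -, rfl⟩
    have h3 := mem_centralizer_singleton_iff.1 h.2
    have h5 : ((h : Matrix.SpecialLinearGroup (Fin 3) F) : M3 F) * (g : M3 F) =
        (g : M3 F) * ((h : Matrix.SpecialLinearGroup (Fin 3) F) : M3 F) := congrArg Subtype.val h3
    rw [mul_sub, sub_mul, mul_one, one_mul]
    exact congrArg₂ (· - ·) h5 rfl

end facts

/-- **`PSL_3(p)`, `p` a Mersenne prime.** -/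
theorem none_mers (hp : p.Prime) (hF : Fintype.card F = p) (hk : 2 ≤ k) (hm : p + 1 = 2 ^ k)
    (hs : IsSimpleGroup (PS 3 F)) (hK : Kaw p (PS 3 F)) {χ : PS 3 F → ℂ} (hχ : IsIrrCharacter (PS 3 F) χ) :
    ¬ OneZero χ := by
  classical
  have hfin : Finite (PS 3 F) := inferInstance
  have hFa : Fintype.card F = p ^ 1 := by rw [pow_one, hF]
  have hFc : Nat.card F = p := by rw [Nat.card_eq_fintype_card, hF]
  have h4k : 2 ^ 2 ≤ 2 ^ k := Nat.pow_le_pow_right (by norm_num) hk
  have hp3 : 3 ≤ p := by omega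
  have hex : ¬ ((3 : ℕ) = 3 ∧ Nat.card F = 2) := by rw [hFc]; omega
  have hfac : (Nat.card (PS 3 F)).factorization p = 3 := fact_psl hp le_rfl hFa (by norm_num)
  -- the primitive prime divisor of `p³ - 1`
  obtain ⟨r₁, hr₁, ho₁⟩ := Cfsg.Agent.Lib.Zsigmondy.exists_prime_orderOf (a := p) (n := 3) hp.two_le
    (by omega) (by omega) (by omega)
  have hP : Prim (Nat.card F) r₁ 3 := by
    rw [hFc]
    exact prim_of_orderOf hp.pos hr₁ ho₁ (by norm_num)
  have i₁ := cong_of_iso hp (iso_top hp (by rw [hFc]) le_rfl hP)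
  have hr₁2 : r₁ ≠ 2 := prim_ne_two (by rw [hFc]; exact hp.pos) hP (by norm_num)
  -- numbers
  obtain ⟨j, rfl⟩ : ∃ j, k = j + 2 := ⟨k - 2, by omega⟩
  have hpj : p = 2 * (2 ^ (j + 1) - 1) + 1 := by
    have h1 : 2 ^ (j + 2) = 2 * 2 ^ (j + 1) := by ring
    have h2 : 1 ≤ 2 ^ (j + 1) := Nat.one_le_two_pow
    omega
  obtain ⟨w, hw, hwo⟩ : ∃ w, p = 2 * w + 1 ∧ ¬ 2 ∣ w := by
    refine ⟨2 ^ (j + 1) - 1, hpj, ?_⟩
    have h1 : 2 ^ (j + 1) = 2 * 2 ^ j := by ring
    have h2 : 1 ≤ 2 ^ j := Nat.one_le_two_pow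
    omega
  have e1 : p ^ 3 - 1 = 2 * (w * (p ^ 2 + p + 1)) := by
    have : p ^ 3 = 2 * (w * (p ^ 2 + p + 1)) + 1 := by
      rw [hw]
      ring
    omega
  have e2 : p ^ 2 - 1 = 2 ^ (j + 3) * w := by
    have h1 : p ^ 2 = (p + 1) * (2 * w) + 1 := by
      rw [hw]
      ring
    rw [h1, hm, Nat.add_sub_cancel]
    ring
  have hodd : ¬ 2 ∣ p ^ 2 + p + 1 := by
    have h1 : p ^ 2 + p + 1 = 2 * ((2 * w + 1) * (w + 1)) + 1 := by rw [hw]; ring
    omega
  have hodd2 : ¬ 2 ∣ w * (p ^ 2 + p + 1) := by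
    rw [Nat.prime_two.dvd_mul]
    exact not_or.2 ⟨hwo, hodd⟩
  have hodd3 : ¬ 2 ∣ p ^ 3 * (w * (p ^ 2 + p + 1)) := by
    rw [Nat.prime_two.dvd_mul]
    refine not_or.2 ⟨fun h => ?_, hodd2⟩
    have := Nat.prime_two.dvd_of_dvd_pow h
    omega
  have hcard : zz 3 F * Nat.card (PS 3 F) = p ^ 3 * ((p ^ 2 - 1) * (p ^ 3 - 1)) := by
    have h1 := H277.CS.card_psl hF (n := 3) (by norm_num)
    rw [zz_eq (by norm_num), hFc, h1]
    simp [Finset.prod_range_succ]
  have hcY := cent_Y hp hF hk hm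
  -- the index
  have hidx : ∀ g : PS 3 F, cent g = cent (pr (Y F) : PS 3 F) →
      (centralizer ({g} : Set (PS 3 F))).index = 2 ^ 1 * (p ^ 3 * (w * (p ^ 2 + p + 1))) := by
    intro g hg
    have h1 := card_mul_index (centralizer ({g} : Set (PS 3 F)))
    have h2 : 0 < p ^ 2 - 1 := by
      rw [e2]
      have : 0 < w := Nat.pos_of_ne_zero fun h => by rw [h] at hwo; exact hwo (dvd_zero 2)
      positivity
    apply Nat.eq_of_mul_eq_mul_left h2
    calc (p ^ 2 - 1) * (centralizer ({g} : Set (PS 3 F))).index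
        = zz 3 F * (cent g * (centralizer ({g} : Set (PS 3 F))).index) := by rw [← hcY, hg]; ring
      _ = zz 3 F * Nat.card (PS 3 F) := by rw [cent, h1]
      _ = _ := by
          rw [hcard, e1]
          ring
  -- the classes of the `p`-elements
  have hcls : ∀ u ∈ pSet p (PS 3 F), u ≠ 1 → 2 ^ (j + 3) ∣ (centralizer ({u} : Set (PS 3 F))).index := by
    intro u hu hu1
    have h1 := card_mul_index (centralizer ({u} : Set (PS 3 F)))
    have h2 := not_four_cent hp hF hk hm hu hu1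
    have h3 : 2 ^ (j + 4) ∣ Nat.card (PS 3 F) := by
      have h4 : 2 ^ (j + 4) ∣ zz 3 F * Nat.card (PS 3 F) := by
        rw [hcard, e1, e2]
        exact ⟨p ^ 3 * w * (w * (p ^ 2 + p + 1)), by ring⟩
      exact (zz_coprime_two (j + 4)).dvd_of_dvd_mul_left h4
    rw [← h1] at h3
    have hc0 : cent u ≠ 0 := Nat.card_pos.ne'
    have hi0 : (centralizer ({u} : Set (PS 3 F))).index ≠ 0 := index_ne_zero_of_finite
    rw [Nat.prime_two.pow_dvd_iff_le_factorization (mul_ne_zero hc0 hi0), Nat.factorization_mul hc0 hi0,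
      Finsupp.add_apply] at h3
    rw [Nat.prime_two.pow_dvd_iff_le_factorization hi0]
    have h5 : (cent u).factorization 2 < 2 := by
      by_contra hlt
      exact h2 ((Nat.prime_two.pow_dvd_iff_le_factorization (k := 2) hc0).2 (by omega))
    have h6 : (cent u).factorization 2 = (Nat.card (centralizer ({u} : Set (PS 3 F)))).factorization 2 := rfl
    omega
  -- the congruence
  have hcong : Cong p (p ^ 6 - 1) 0 (PS 3 F) := by
    intro ψ hψ hz m e he hsum
    obtain ⟨he1, hm3⟩ := close_odd hr₁ hr₁2 ho₁ (by decide) he (i₁ ψ hψ hz m e he hsum)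
    have hle := (hK.top hp hψ he hsum).1
    rw [hfac] at hle
    subst he1
    obtain ⟨s, rfl⟩ := hm3
    have hs3 : s ≤ 2 := by omega
    interval_cases s
    · simp
    · -- the middle case
      exfalso
      obtain ⟨x, hx0, hxu⟩ := hz
      have hone : One (⟨ψ, hψ⟩ : IrrCharacter (PS 3 F)) x := ⟨hx0, hxu⟩
      have h1 : 2 ^ (j + 3) ∣ (p ^ 3 - 1) * charDegree ψ := by
        refine dvd_deg (⟨ψ, hψ⟩ : IrrCharacter (PS 3 F)) hp.ne_zero (by positivity) ?_ hcls
        rw [hsum]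
        push_cast
        ring
      have h2 : 2 ^ (1 + (j + 1)) ∣ charDegree ψ := by
        rw [e1, mul_assoc, show j + 3 = 1 + (1 + (j + 1)) by ring, pow_add, pow_one] at h1
        have h3 := Nat.dvd_of_mul_dvd_mul_left (by norm_num) h1
        exact (Nat.Coprime.pow_left _ ((Nat.Prime.coprime_iff_not_dvd Nat.prime_two).2 hodd2)).dvd_of_dvd_mul_left h3
      obtain ⟨z, hz1, hz2⟩ := exists_z (F := F) hp hF hk hm
      have h3 := two_classes hone (c := cent (pr (Y F) : PS 3 F)) (r := 2 ^ (j + 1)) (by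
          calc 2 = 2 ^ 1 := by norm_num
            _ ≤ 2 ^ (j + 1) := Nat.pow_le_pow_right (by norm_num) (by omega))
        (fun g hg => isIntegral_div_pow _ Nat.prime_two h2 (hidx g hg) hodd3) rfl hz1 hz2
      have h4 : 2 ≤ cent x := by
        have h5 : x ≠ 1 := ne_one hone
        have h6 : 0 < cent x := Nat.card_pos
        by_contra h7
        have h8 : cent x = 1 := by omega
        have h9 : centralizer ({x} : Set (PS 3 F)) = ⊥ := card_eq_one.1 h8
        have h10 : x ∈ centralizer ({x} : Set (PS 3 F)) := by rw [mem_centralizer_singleton_iff]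
        rw [h9, mem_bot] at h10
        exact h5 h10
      have h5 : cent (pr (Y F) : PS 3 F) ≤ p ^ 2 - 1 := by
        rw [← hcY]
        exact Nat.le_mul_of_pos_right _ zz_pos
      have h6 : 4 * ((2 ^ (j + 1)) ^ 2 - 1) ≤ p ^ 2 - 1 := by
        refine le_trans ?_ (h3.trans h5)
        exact Nat.mul_le_mul_right _ (by omega)
      have h7 : p + 1 = 2 * 2 ^ (j + 1) := by rw [hm]; ring
      have h8 : 1 ≤ 2 ^ (j + 1) := Nat.one_le_two_pow
      generalize 2 ^ (j + 1) = t at *
      have h9 : p = 2 * t - 1 := by omega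
      have h10 : 2 ≤ t := by omega
      obtain ⟨t', rfl⟩ := Nat.exists_eq_add_of_le' h10
      have h11 : p = 2 * t' + 3 := by omega
      rw [h11] at h6
      have h12 : (t' + 2) ^ 2 = t' ^ 2 + 4 * t' + 3 + 1 := by ring
      have h13 : (2 * t' + 3) ^ 2 = 4 * t' ^ 2 + 12 * t' + 8 + 1 := by ring
      rw [h12, h13, Nat.add_sub_cancel, Nat.add_sub_cancel] at h6
      omega
    · have h1 : 1 ≤ p ^ 6 := Nat.one_le_pow _ _ hp.pos
      push_cast [Nat.cast_sub h1]
      norm_num
  refine none_of_cong hs hp hfac (by norm_num) hK ?_ ?_ hχ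
  · have h1 := not_dvd_psl hp le_rfl hFa le_rfl hex
    simpa using h1
  · intro m e he hm0 hm6 hH
    have h1 := hH _ _ hcong
    have h2 : 1 ≤ p ^ 6 := Nat.one_le_pow _ _ hp.pos
    have h3 : p ^ m ≤ p ^ 5 := Nat.pow_le_pow_right hp.pos (by omega)
    have h4 : p ^ 1 ≤ p ^ m := Nat.pow_le_pow_right hp.pos (by omega)
    have h5 : p ^ 6 = p * p ^ 5 := by ring
    have h6 : 3 * p ^ 5 ≤ p ^ 6 := by rw [h5]; exact Nat.mul_le_mul_right _ hp3
    rw [pow_one] at h4
    rcases he with rfl | rfl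
    · have h7 : ((p ^ 6 - 1 : ℕ) : ℤ) ∣ ((p ^ m - 1 : ℕ) : ℤ) := by
        rw [Nat.cast_sub (show 1 ≤ p ^ m by omega)]
        push_cast at h1 ⊢
        simpa using h1
      have h8 := Nat.le_of_dvd (by omega) (Int.natCast_dvd_natCast.1 h7)
      omega
    · have h7 : ((p ^ 6 - 1 : ℕ) : ℤ) ∣ ((p ^ m + 1 : ℕ) : ℤ) := by
        have h8 := (_root_.dvd_neg).2 h1
        have h9 : ((p ^ m + 1 : ℕ) : ℤ) = -(-1 * (p : ℤ) ^ m - (p : ℤ) ^ 0) := by
          push_cast
          ring
        rw [h9]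
        exact h8
      have h8 := Nat.le_of_dvd (by omega) (Int.natCast_dvd_natCast.1 h7)
      omega

end Cfsg.Agent.H670.OneZ
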