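import Cfsg.Agent.H670.OneZ.IsoCyc
import Cfsg.Agent.H670.OneZ.Arith
import Cfsg.Agent.H889.PDL.Cen
import Cfsg.Agent.H277.CS.PslSub
import Cfsg.Agent.H514.DP.Cyc
import Cfsg.Agent.H514.DP.OrdElt
import Cfsg.Agent.S0280

/-!
# The isolated primes of `PSL_n(q)` (helper670, S4842)

* `iso_top`  : `r` a primitive prime divisor of `q ^ n - 1`;
* `iso_pred` : `r` a primitive prime divisor of `q ^ (n - 1) - 1`, `(n, q) ≠ (3, 2)`.
-/

set_option autoImplicit false

namespace Cfsg.Agent.H670.OneZ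

open Subgroup Matrix Cfsg.Agent.H732.VZ Cfsg.Agent.H889.PDL
open Cfsg.Agent.H999.RowPSL (Prim)

universe v

section arith

theorem geom_gt {q : ℕ} (hq : 2 ≤ q) {n : ℕ} (hn : 3 ≤ n) : (n + 1) * (q - 1) < ∑ i ∈ Finset.range n, q ^ i := by
  obtain ⟨k, rfl⟩ := Nat.exists_eq_add_of_le' hn
  obtain ⟨s, rfl⟩ := Nat.exists_eq_add_of_le' hq
  induction k with
  | zero =>
    simp only [Finset.sum_range_succ, Finset.sum_range_zero]
    have : s + 2 - 1 = s + 1 := by omega
    rw [this]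
    nlinarith
  | succ k ih =>
    rw [Finset.sum_range_succ]
    have h1 : s + 2 - 1 = s + 1 := by omega
    have ih' := ih (by omega)
    rw [h1] at ih' ⊢
    have h2 : s + 2 ≤ (s + 2) ^ (k + 1 + 3 - 1) := by
      calc s + 2 = (s + 2) ^ 1 := by rw [pow_one]
        _ ≤ _ := Nat.pow_le_pow_right (by omega) (by omega)
    have h3 : (s + 2) ^ (k + 3) ≥ s + 2 := by
      calc s + 2 = (s + 2) ^ 1 := by rw [pow_one]
        _ ≤ _ := Nat.pow_le_pow_right (by omega) (by omega)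
    have h4 : k + 1 + 3 = k + 3 + 1 := by omega
    nlinarith

theorem geom_gt' {q : ℕ} (hq : 2 ≤ q) {n : ℕ} (hn : 3 ≤ n) (hex : ¬ (n = 3 ∧ q = 2)) :
    n < ∑ i ∈ Finset.range (n - 1), q ^ i := by
  obtain ⟨k, rfl⟩ := Nat.exists_eq_add_of_le' hn
  have e1 : k + 3 - 1 = k + 2 := by omega
  rw [e1]
  clear e1
  have key : ∀ k, (k = 0 → 3 ≤ q) → k + 3 < ∑ i ∈ Finset.range (k + 2), q ^ i := by
    intro k
    induction k with
    | zero =>
      intro h
      have := h rfl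
      simp only [Finset.sum_range_succ, Finset.sum_range_zero, pow_zero, pow_one]
      omega
    | succ k ih =>
      intro _
      rw [Finset.sum_range_succ]
      rcases Nat.eq_zero_or_pos k with h0 | h0
      · subst h0
        simp only [Finset.sum_range_succ, Finset.sum_range_zero, pow_zero, pow_one, zero_add]
        nlinarith
      · have h1 := ih (by omega)
        have h2 : 1 ≤ q ^ (k + 2) := Nat.one_le_pow _ _ (by omega)
        omega
  apply key
  intro h0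
  by_contra h
  exact hex ⟨by omega, by omega⟩

theorem prim_ne_two {q r m : ℕ} (hq : 1 ≤ q) (h : Prim q r m) (hm : 2 ≤ m) : r ≠ 2 := by
  rintro rfl
  have h1 := h.dvd
  apply h.ndvd 1 one_pos (by omega)
  rw [pow_one]
  rcases Nat.even_or_odd q with he | ho
  · exfalso
    have h2 : Even (q ^ m) := he.pow_of_ne_zero (by omega)
    have h3 : 1 ≤ q ^ m := Nat.one_le_pow _ _ (by omega)
    obtain ⟨c, hc⟩ := h1
    obtain ⟨d, hd⟩ := h2
    omega
  · obtain ⟨c, hc⟩ := ho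
    exact ⟨c, by omega⟩

theorem orderOf_of_prim {q r m : ℕ} (hq : 1 ≤ q) (h : Prim q r m) (hm : 0 < m) : orderOf ((q : ℕ) : ZMod r) = m := by
  have hc : ∀ d, ((q : ℕ) : ZMod r) ^ d = 1 ↔ r ∣ q ^ d - 1 := by
    intro d
    rw [← Nat.cast_pow, ← sub_eq_zero, ← ZMod.natCast_eq_zero_iff, Nat.cast_sub (Nat.one_le_pow _ _ (by omega)),
      Nat.cast_one]
  rw [orderOf_eq_iff hm]
  refine ⟨(hc m).2 h.dvd, fun d hd hd0 h1 => h.ndvd d hd0 hd ((hc d).1 h1)⟩

theorem prim_of_orderOf {q r m : ℕ} (hq : 1 ≤ q) (hr : r.Prime) (h : orderOf ((q : ℕ) : ZMod r) = m) (hm : 0 < m) :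
    Prim q r m := by
  have hc : ∀ d, ((q : ℕ) : ZMod r) ^ d = 1 ↔ r ∣ q ^ d - 1 := by
    intro d
    rw [← Nat.cast_pow, ← sub_eq_zero, ← ZMod.natCast_eq_zero_iff, Nat.cast_sub (Nat.one_le_pow _ _ (by omega)),
      Nat.cast_one]
  rw [orderOf_eq_iff hm] at h
  exact ⟨hr, (hc m).1 h.1, fun d hd0 hd h1 => h.2 d hd hd0 ((hc d).2 h1)⟩

theorem prim_dvd {q r m : ℕ} (hq : 1 ≤ q) (h : Prim q r m) (hm : 0 < m) : m ∣ r - 1 := by
  have : Fact r.Prime := ⟨h.pr⟩
  rw [← orderOf_of_prim hq h hm]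
  apply orderOf_dvd_of_pow_eq_one
  apply ZMod.pow_card_sub_one_eq_one
  intro h0
  have h1 : r ∣ q := (ZMod.natCast_eq_zero_iff _ _).1 h0
  have h2 : r ∣ q ^ m := dvd_pow h1 hm.ne'
  have h3 : 1 ≤ q ^ m := Nat.one_le_pow _ _ (by omega)
  have h4 : r ∣ 1 := by
    have := (Nat.dvd_sub h2 h.dvd)
    rwa [Nat.sub_sub_self h3] at this
  exact h.pr.one_lt.ne' (Nat.dvd_one.1 h4)

end arith

variable {F : Type v} [Field F] [Fintype F] {p a n r : ℕ}

theorem zz_eq (hn : 2 ≤ n) : zz n F = Nat.gcd n (Nat.card F - 1) := by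
  rw [zz, Cfsg.Agent.S0280.card_center_SL (by omega), Nat.card_eq_fintype_card]

theorem ndvd_zz (hn : 2 ≤ n) {m : ℕ} (hm : 2 ≤ m) (h : Prim (Nat.card F) r m) : ¬ r ∣ zz n F := by
  rw [zz_eq hn]
  intro hd
  apply h.ndvd 1 one_pos (by omega)
  rw [pow_one]
  exact hd.trans (Nat.gcd_dvd_right _ _)

/-- isolated primes from `Fine` -/
theorem iso_of_fine (hp : p.Prime) (hpF : p ∣ Nat.card F) {m : ℕ} (hm : 2 ≤ m) (h : Fine n F r m)
    {g : PS n F} (hg : r ∣ orderOf g) (hlt : m + 1 < orderOf g) : Iso (PS n F) p r := by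
  have hq : 1 < Nat.card F := Finite.one_lt_card
  have hfin : Finite (PS n F) := inferInstance
  have hrp : r ≠ p := by
    rintro rfl
    have h2 : r ∣ Nat.card F ^ m := dvd_pow hpF (by omega)
    have h3 : 1 ≤ Nat.card F ^ m := Nat.one_le_pow _ _ (by omega)
    have h4 : r ∣ 1 := by
      have := (Nat.dvd_sub h2 h.prim.dvd)
      rwa [Nat.sub_sub_self h3] at this
    exact h.prim.pr.one_lt.ne' (Nat.dvd_one.1 h4)
  refine iso_of_cyclic h.prim.pr hrp (hg.trans (orderOf_dvd_natCard g)) h.cyc (fun x hx => ?_)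
    (h4_of_idx h.prim.pr (prim_dvd hq.le h.prim (by omega)) h.cyc (fun x hx => h.norm x hx) hg hlt)
  have h1 := h.v_cent_char (by omega) hp hpF hx
  rw [hp.coprime_iff_not_dvd]
  intro h2
  have h3 := (hp.dvd_iff_one_le_factorization Nat.card_pos.ne').1 h2
  have h4 : (Nat.card (centralizer ({x} : Set (PS n F)))).factorization p = 0 := h1
  omega

theorem iso_pred (hp : p.Prime) (hpF : p ∣ Nat.card F) (hn : 3 ≤ n) (hex : ¬ (n = 3 ∧ Nat.card F = 2))
    (h : Prim (Nat.card F) r (n - 1)) : Iso (PS n F) p r := by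
  have hq : 1 < Nat.card F := Finite.one_lt_card
  have hz : ¬ r ∣ zz n F := ndvd_zz (by omega) (by omega) h
  obtain ⟨g, hg⟩ := Cfsg.Agent.H363.PslTorus.exists_big (F := F) (n := n) (by omega)
  have hgr : r ∣ orderOf g := by
    rw [zz_eq (by omega)] at hz
    exact (h.pr.dvd_mul.1 (h.dvd.trans hg)).resolve_right hz
  refine iso_of_fine hp hpF (by omega) (fine_pred hn hz h) hgr ?_
  have hfin : Finite (PS n F) := inferInstance
  have hg0 : 0 < orderOf g := orderOf_pos g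
  have hd0 : 0 < Nat.gcd n (Nat.card F - 1) := Nat.gcd_pos_of_pos_left _ (by omega)
  have h1 := Nat.le_of_dvd (Nat.mul_pos hg0 hd0) hg
  have h2 : Nat.gcd n (Nat.card F - 1) ≤ Nat.card F - 1 := Nat.gcd_le_right _ (by omega)
  have h3 := geom_gt' hq hn hex
  have h4 : (∑ i ∈ Finset.range (n - 1), Nat.card F ^ i) * (Nat.card F - 1) = Nat.card F ^ (n - 1) - 1 := by
    have := Nat.geomSum_eq hq (n - 1)
    rw [this, Nat.div_mul_cancel]
    simpa using Nat.sub_dvd_pow_sub_pow (Nat.card F) 1 (n - 1)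
  by_contra hcon
  push Not at hcon
  have h5 : orderOf g * Nat.gcd n (Nat.card F - 1) ≤ n * (Nat.card F - 1) :=
    Nat.mul_le_mul (by omega) h2
  have h6 : n * (Nat.card F - 1) < (∑ i ∈ Finset.range (n - 1), Nat.card F ^ i) * (Nat.card F - 1) :=
    Nat.mul_lt_mul_of_pos_right h3 (by omega)
  omega

/-- the Singer cycle in `PSL_n(q)` -/
theorem exists_singer (hn : 2 ≤ n) : ∃ g : PS n F,
    (Nat.card F ^ n - 1) / (Nat.card F - 1) ∣ orderOf g * Nat.gcd n (Nat.card F - 1) := by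
  obtain ⟨K, _, _, ⟨b⟩⟩ := Cfsg.Agent.H514.DP.exists_ext (F := F) (n := n) (by omega)
  obtain ⟨z, hz1, hz2, -⟩ := Cfsg.Agent.H514.DP.exists_singer_norm_one b hn
  set g := Cfsg.Agent.H514.DP.sing b z hz1 with hg
  have h1 : orderOf g = orderOf z := by
    rw [orderOf_eq_orderOf_iff]
    intro k
    have h2 : ((g ^ k : Matrix.SpecialLinearGroup (Fin n) F) : Matrix (Fin n) (Fin n) F) =
        Algebra.leftMulMatrix b (z ^ k) := by
      rw [Matrix.SpecialLinearGroup.coe_pow, map_pow]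
      rfl
    constructor
    · intro h3
      rw [h3, Matrix.SpecialLinearGroup.coe_one, ← map_one (Algebra.leftMulMatrix b)] at h2
      exact (Algebra.leftMulMatrix_injective b h2).symm
    · intro h3
      apply Subtype.ext
      rw [h2, h3, map_one]
      rfl
  refine ⟨Cfsg.Agent.H363.PslSpec.pr F n g, ?_⟩
  rw [← hz2, ← h1]
  have h2 := Cfsg.Agent.H363.PslSpec.lift_pow g (pow_orderOf_eq_one (Cfsg.Agent.H363.PslSpec.pr F n g))
  exact orderOf_dvd_of_pow_eq_one h2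

theorem iso_top (hp : p.Prime) (hpF : p ∣ Nat.card F) (hn : 3 ≤ n)
    (h : Prim (Nat.card F) r n) : Iso (PS n F) p r := by
  have hq : 1 < Nat.card F := Finite.one_lt_card
  have hz : ¬ r ∣ zz n F := ndvd_zz (by omega) (by omega) h
  obtain ⟨g, hg⟩ := exists_singer (F := F) (n := n) (by omega)
  have h4 : (∑ i ∈ Finset.range n, Nat.card F ^ i) * (Nat.card F - 1) = Nat.card F ^ n - 1 := by
    have := Nat.geomSum_eq hq n
    rw [this, Nat.div_mul_cancel]
    simpa using Nat.sub_dvd_pow_sub_pow (Nat.card F) 1 n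
  rw [← Nat.geomSum_eq hq n] at hg
  have hgr : r ∣ orderOf g := by
    rw [zz_eq (by omega)] at hz
    have h5 : r ∣ ∑ i ∈ Finset.range n, Nat.card F ^ i := by
      have h6 := h.dvd
      rw [← h4] at h6
      refine (h.pr.dvd_mul.1 h6).resolve_right ?_
      have := h.ndvd 1 one_pos (by omega)
      rwa [pow_one] at this
    exact (h.pr.dvd_mul.1 (h5.trans hg)).resolve_right hz
  refine iso_of_fine hp hpF (by omega) (fine_top hz h) hgr ?_
  have hfin : Finite (PS n F) := inferInstance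
  have hg0 : 0 < orderOf g := orderOf_pos g
  have hd0 : 0 < Nat.gcd n (Nat.card F - 1) := Nat.gcd_pos_of_pos_left _ (by omega)
  have h1 := Nat.le_of_dvd (Nat.mul_pos hg0 hd0) hg
  have h2 : Nat.gcd n (Nat.card F - 1) ≤ Nat.card F - 1 := Nat.gcd_le_right _ (by omega)
  have h3 := geom_gt hq hn
  by_contra hcon
  push Not at hcon
  have h5 : orderOf g * Nat.gcd n (Nat.card F - 1) ≤ (n + 1) * (Nat.card F - 1) :=
    Nat.mul_le_mul hcon h2
  omega

end Cfsg.Agent.H670.OneZ
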