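import Cfsg.Agent.H670.OneZ.PslIso
import Cfsg.Agent.Lib.Zsigmondy

/-!
# S4842 for `PSL_n(q)`, `n ≥ 3` (helper670)

`none_psl` : no irreducible character of `PSL_n(q)` vanishes on exactly one class, if there are primitive prime divisors
of `q ^ n - 1` and `q ^ (n - 1) - 1` with the arithmetic condition.
-/

set_option autoImplicit false

namespace Cfsg.Agent.H670.OneZ

open Subgroup Matrix Cfsg Cfsg.Agent.H732.VZ Cfsg.Agent.H889.PDL Cfsg.Agent.H730.OZ
open Cfsg.Agent.H999.RowPSL (Prim)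

universe v

variable {F : Type v} [Field F] [Fintype F] {p a n : ℕ}

theorem fact_psl (hp : p.Prime) (ha : 1 ≤ a) (hF : Fintype.card F = p ^ a) (hn : 2 ≤ n) :
    (Nat.card (PS n F)).factorization p = a * (n * (n - 1) / 2) := by
  have hcS := H277.CS.card_psl hF hn
  have hq1 : 1 < p ^ a := Nat.one_lt_pow (by omega) hp.one_lt
  have hpq : p ∣ p ^ a := dvd_pow_self p (by omega)
  have hpd : ¬ p ∣ Nat.gcd n (p ^ a - 1) := by
    intro h
    have := H277.CS.not_dvd_pow_sub_one (j := 1) hp hq1.le hpq one_pos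
    rw [pow_one] at this
    exact this (h.trans (Nat.gcd_dvd_right _ _))
  apply H277.CS.fact_of hp hpd (H277.CS.not_dvd_prod_pow (m := n - 1) hp hq1.le hpq (show 0 < 2 by norm_num))
  rw [mul_comm, hcS, ← pow_mul]

/-- the order of `PSL_n(q)` is not divisible by `p ^ (a n (n - 1)) - 1` -/
theorem not_dvd_psl (hp : p.Prime) (ha : 1 ≤ a) (hF : Fintype.card F = p ^ a) (hn : 3 ≤ n)
    (hex : ¬ (n = 3 ∧ Nat.card F = 2)) : ¬ p ^ (a * (n * (n - 1))) - 1 ∣ Nat.card (PS n F) := by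
  intro h
  have h6 : 6 ≤ n * (n - 1) := by
    calc 6 = 3 * 2 := by norm_num
      _ ≤ n * (n - 1) := Nat.mul_le_mul hn (by omega)
  have hM : 6 ≤ a * (n * (n - 1)) := by nlinarith
  obtain ⟨t, ht, hord⟩ := Cfsg.Agent.Lib.Zsigmondy.exists_prime_orderOf (a := p) (n := a * (n * (n - 1))) hp.two_le
    (by omega) (by omega) (by
      rintro ⟨rfl, h1⟩
      apply hex
      have ha1 : a = 1 := by
        by_contra hne
        have : 2 ≤ a := by omega
        have : 2 * 6 ≤ a * (n * (n - 1)) := Nat.mul_le_mul this h6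
        omega
      subst ha1
      refine ⟨?_, by rw [Nat.card_eq_fintype_card, hF, pow_one]⟩
      by_contra hne
      have h2 : 4 * 3 ≤ n * (n - 1) := Nat.mul_le_mul (by omega) (by omega)
      omega)
  have hP := prim_of_orderOf hp.pos ht hord (by omega)
  have h1 : t ∣ Nat.card (PS n F) := hP.dvd.trans h
  have hcS := H277.CS.card_psl hF (n := n) (by omega)
  have h2 : t ∣ (p ^ a) ^ (n * (n - 1) / 2) * ∏ i ∈ Finset.range (n - 1), ((p ^ a) ^ (i + 2) - 1) := by
    rw [← hcS]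
    exact h1.mul_left _
  rcases ht.dvd_mul.1 h2 with h3 | h3
  · have h4 : t ∣ p := ht.dvd_of_dvd_pow (ht.dvd_of_dvd_pow h3)
    have h5 : t ∣ p ^ (a * (n * (n - 1))) := dvd_pow h4 (by omega)
    have h7 : 1 ≤ p ^ (a * (n * (n - 1))) := Nat.one_le_pow _ _ hp.pos
    have h8 : t ∣ 1 := by
      have := (Nat.dvd_sub h5 hP.dvd)
      rwa [Nat.sub_sub_self h7] at this
    exact ht.one_lt.ne' (Nat.dvd_one.1 h8)
  · rw [Prime.dvd_finsetProd_iff ht.prime] at h3
    obtain ⟨i, hi, h4⟩ := h3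
    rw [Finset.mem_range] at hi
    rw [← pow_mul] at h4
    refine hP.ndvd (a * (i + 2)) (by positivity) ?_ h4
    apply Nat.mul_lt_mul_of_pos_left _ (by omega)
    calc i + 2 ≤ n := by omega
      _ = n * 1 := by rw [mul_one]
      _ < n * (n - 1) := Nat.mul_lt_mul_of_pos_left (by omega) (by omega)

/-- **The general argument.** -/
theorem none_psl (hp : p.Prime) (ha : 1 ≤ a) (hF : Fintype.card F = p ^ a) (hn : 3 ≤ n)
    (hex : ¬ (n = 3 ∧ Nat.card F = 2)) (hs : IsSimpleGroup (PS n F)) (hK : Kaw p (PS n F))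
    {r₁ r₂ D₁ D₂ : ℕ} (h₁ : Prim (Nat.card F) r₁ n) (h₂ : Prim (Nat.card F) r₂ (n - 1))
    (hD₁ : orderOf (p : ZMod r₁) = D₁) (hD₂ : orderOf (p : ZMod r₂) = D₂) (hD₁0 : 0 < D₁) (hD₂0 : 0 < D₂)
    (hv : padicValNat 2 D₁ ≠ padicValNat 2 D₂) (hl : a * (n * (n - 1)) ∣ Nat.lcm D₁ D₂)
    {χ : PS n F → ℂ} (hχ : IsIrrCharacter (PS n F) χ) : ¬ OneZero χ := by
  have hfin : Finite (PS n F) := inferInstance
  have hq : 1 < Nat.card F := Finite.one_lt_card
  have hpF : p ∣ Nat.card F := by rw [Nat.card_eq_fintype_card, hF]; exact dvd_pow_self p (by omega)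
  have i₁ := cong_of_iso hp (iso_top hp hpF hn h₁)
  have i₂ := cong_of_iso hp (iso_pred hp hpF hn hex h₂)
  have h6 : 6 ≤ n * (n - 1) := by
    calc 6 = 3 * 2 := by norm_num
      _ ≤ n * (n - 1) := Nat.mul_le_mul hn (by omega)
  have he : 2 * (a * (n * (n - 1) / 2)) = a * (n * (n - 1)) := by
    have := Nat.div_mul_cancel (Nat.even_mul_pred_self n).two_dvd
    calc 2 * (a * (n * (n - 1) / 2)) = a * (n * (n - 1) / 2 * 2) := by ring
      _ = _ := by rw [this]
  refine none_of_cong hs hp (fact_psl hp ha hF (by omega)) ?_ hK ?_ ?_ hχ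
  · have : 3 ≤ n * (n - 1) / 2 := by omega
    have : 0 < a * (n * (n - 1) / 2) := by positivity
    omega
  · rw [he]
    exact not_dvd_psl hp ha hF hn hex
  · intro m e hee hm0 hm hH
    rw [he] at hm
    obtain ⟨-, h3, h4⟩ := close_two h₁.pr (prim_ne_two hq.le h₁ (by omega)) hD₁ hD₁0 h₂.pr
      (prim_ne_two hq.le h₂ (by omega)) hD₂ hD₂0 hv hee (hH _ _ i₁) (hH _ _ i₂)
    have h5 := Nat.le_of_dvd hm0 (hl.trans (Nat.lcm_dvd h3 h4))
    omega

theorem prim_pow {r d : ℕ} (hp : p.Prime) (ha : 1 ≤ a) (hr : r.Prime) (h : orderOf (p : ZMod r) = a * d) (hd : 0 < d) :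
    Prim (p ^ a) r d := by
  refine prim_of_orderOf (Nat.one_le_pow _ _ hp.pos) hr ?_ hd
  push_cast
  rw [orderOf_pow' _ (by omega), h, Nat.gcd_mul_right_left, Nat.mul_div_cancel_left _ (by omega)]

theorem val_ne (hn : 2 ≤ n) : padicValNat 2 n ≠ padicValNat 2 (n - 1) := by
  have : Fact (Nat.Prime 2) := ⟨Nat.prime_two⟩
  rcases Nat.even_or_odd n with h | h
  · have h1 : padicValNat 2 (n - 1) = 0 := by
      apply padicValNat.eq_zero_of_not_dvd
      obtain ⟨k, hk⟩ := h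
      omega
    have h2 : 1 ≤ padicValNat 2 n := one_le_padicValNat_of_dvd (by omega) h.two_dvd
    omega
  · have h1 : padicValNat 2 n = 0 := padicValNat.eq_zero_of_not_dvd h.not_two_dvd_nat
    have h2 : 1 ≤ padicValNat 2 (n - 1) := by
      apply one_le_padicValNat_of_dvd (by omega)
      obtain ⟨k, hk⟩ := h
      exact ⟨k, by omega⟩
    omega

theorem prim_dec {q r m : ℕ} (hr : r.Prime) (h : (q ^ m - 1) % r = 0 ∧ ∀ d < m, 0 < d → (q ^ d - 1) % r ≠ 0) :
    Prim q r m :=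
  ⟨hr, Nat.dvd_of_mod_eq_zero h.1, fun d hd hdm hdv => h.2 d hdm hd (Nat.mod_eq_zero_of_dvd hdv)⟩

theorem order_dec {q r m : ℕ} (hq : 1 ≤ q) (hr : r.Prime) (hm : 0 < m)
    (h : (q ^ m - 1) % r = 0 ∧ ∀ d < m, 0 < d → (q ^ d - 1) % r ≠ 0) : orderOf ((q : ℕ) : ZMod r) = m :=
  orderOf_of_prim hq (prim_dec hr h) hm

/-- **`PSL_n(q)`, `n ≥ 3`**, except `PSL_3(2)`, `PSL_6(2)`, `PSL_7(2)` and `PSL_3(p)`, `p` a Mersenne prime. -/
theorem none_psl_all (hp : p.Prime) (ha : 1 ≤ a) (hF : Fintype.card F = p ^ a) (hn : 3 ≤ n)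
    (hs : IsSimpleGroup (PS n F)) (hK : Kaw p (PS n F))
    (h62 : ¬ (n = 6 ∧ Fintype.card F = 2)) (h72 : ¬ (n = 7 ∧ Fintype.card F = 2))
    (hmer : ¬ (n = 3 ∧ a = 1 ∧ ∃ k, p + 1 = 2 ^ k)) (hex : ¬ (n = 3 ∧ Fintype.card F = 2))
    {χ : PS n F → ℂ} (hχ : IsIrrCharacter (PS n F) χ) : ¬ OneZero χ := by
  have hex' : ¬ (n = 3 ∧ Nat.card F = 2) := by rwa [Nat.card_eq_fintype_card]
  have hFc : Nat.card F = p ^ a := by rw [Nat.card_eq_fintype_card, hF]
  have : Fact (Nat.Prime 2) := ⟨Nat.prime_two⟩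
  by_cases hA : p = 2 ∧ a * n = 6
  · obtain ⟨rfl, hA⟩ := hA
    have h1 : n ≤ 6 := by nlinarith
    have h2 : n = 3 ∨ n = 6 := by
      interval_cases n <;> omega
    rcases h2 with rfl | rfl
    · obtain rfl : a = 2 := by omega
      have p7 : Nat.Prime 7 := by norm_num
      have p5 : Nat.Prime 5 := by norm_num
      refine none_psl hp ha hF hn hex' hs hK (r₁ := 7) (r₂ := 5) (D₁ := 3) (D₂ := 4)
        (by rw [hFc]; exact prim_dec p7 (by decide)) (by rw [hFc]; exact prim_dec p5 (by decide))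
        (order_dec (by norm_num) p7 (by norm_num) (by decide)) (order_dec (by norm_num) p5 (by norm_num) (by decide))
        (by norm_num) (by norm_num) ?_ (by decide) hχ
      rw [padicValNat.eq_zero_of_not_dvd (by norm_num : ¬ 2 ∣ 3), show (4 : ℕ) = 2 ^ 2 by norm_num, padicValNat.prime_pow]
      norm_num
    · obtain rfl : a = 1 := by omega
      exact absurd ⟨rfl, by rw [hF]; norm_num⟩ h62
  by_cases hB : p = 2 ∧ a * (n - 1) = 6
  · obtain ⟨rfl, hB⟩ := hB
    have h1 : n - 1 ≤ 6 := by nlinarith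
    have h2 : n = 3 ∨ n = 4 ∨ n = 7 := by
      have h3 : n ≤ 7 := by omega
      interval_cases n <;> omega
    rcases h2 with rfl | rfl | rfl
    · obtain rfl : a = 3 := by omega
      have p73 : Nat.Prime 73 := by norm_num
      have p3 : Nat.Prime 3 := by norm_num
      refine none_psl hp ha hF hn hex' hs hK (r₁ := 73) (r₂ := 3) (D₁ := 9) (D₂ := 2)
        (by rw [hFc]; exact prim_dec p73 (by decide)) (by rw [hFc]; exact prim_dec p3 (by decide))
        (order_dec (by norm_num) p73 (by norm_num) (by decide)) (order_dec (by norm_num) p3 (by norm_num) (by decide))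
        (by norm_num) (by norm_num) ?_ (by decide) hχ
      rw [padicValNat.eq_zero_of_not_dvd (by norm_num : ¬ 2 ∣ 9), padicValNat.self (by norm_num)]
      norm_num
    · obtain rfl : a = 2 := by omega
      have p17 : Nat.Prime 17 := by norm_num
      have p7 : Nat.Prime 7 := by norm_num
      refine none_psl hp ha hF hn hex' hs hK (r₁ := 17) (r₂ := 7) (D₁ := 8) (D₂ := 3)
        (by rw [hFc]; exact prim_dec p17 (by decide)) (by rw [hFc]; exact prim_dec p7 (by decide))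
        (order_dec (by norm_num) p17 (by norm_num) (by decide)) (order_dec (by norm_num) p7 (by norm_num) (by decide))
        (by norm_num) (by norm_num) ?_ (by decide) hχ
      rw [padicValNat.eq_zero_of_not_dvd (by norm_num : ¬ 2 ∣ 3), show (8 : ℕ) = 2 ^ 3 by norm_num, padicValNat.prime_pow]
      norm_num
    · obtain rfl : a = 1 := by omega
      exact absurd ⟨rfl, by rw [hF]; norm_num⟩ h72
  have hn3 : 3 ≤ a * n := by nlinarith
  have hn2 : 2 ≤ a * (n - 1) := by
    calc 2 = 1 * 2 := by norm_num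
      _ ≤ a * (n - 1) := Nat.mul_le_mul ha (by omega)
  obtain ⟨r₁, hr₁, ho₁⟩ := Cfsg.Agent.Lib.Zsigmondy.exists_prime_orderOf (a := p) (n := a * n) hp.two_le
    (by omega) (by omega) hA
  obtain ⟨r₂, hr₂, ho₂⟩ := Cfsg.Agent.Lib.Zsigmondy.exists_prime_orderOf (a := p) (n := a * (n - 1)) hp.two_le
    (by omega) (by
      intro h2
      have ha1 : a = 1 := by
        by_contra hne
        have : 2 * 2 ≤ a * (n - 1) := Nat.mul_le_mul (by omega) (by omega)
        omega
      subst ha1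
      intro hk
      exact hmer ⟨by omega, rfl, hk⟩) hB
  refine none_psl hp ha hF hn hex' hs hK (r₁ := r₁) (r₂ := r₂) (D₁ := a * n) (D₂ := a * (n - 1))
    (by rw [hFc]; exact prim_pow hp ha hr₁ ho₁ (by omega)) (by rw [hFc]; exact prim_pow hp ha hr₂ ho₂ (by omega))
    ho₁ ho₂ (by omega) (by omega) ?_ ?_ hχ
  · rw [val_mul (by omega) (by omega), val_mul (by omega) (by omega)]
    have := val_ne (n := n) (by omega)
    omega
  · rw [Nat.lcm_mul_left, Nat.Coprime.lcm_eq_mul]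
    have h1 := Nat.coprime_self_sub_right (m := 1) (n := n) (by omega)
    exact h1.2 (Nat.coprime_one_right n)

end Cfsg.Agent.H670.OneZ
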