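import Cfsg.Agent.H670.OneZ.Mers
import Cfsg.Agent.H279.OZ.Kaw
import Cfsg.Agent.Nodes.RGDClass
import Cfsg.Agent.H730.OZ.Asm
import Cfsg.Agent.S0255

/-!
# The row `PSL_n(q)`, `n ≥ 3`, of S4842 (helper670)

`row_psl` : inputs: the rows of `PSL_2(7)`, `PSL_6(2)`, `PSL_7(2)`.
-/

set_option autoImplicit false

namespace Cfsg.Agent.H670.OneZ

open Cfsg Cfsg.Agent.H730.OZ Cfsg.Agent.H889.PDL

universe u v

/-- **`PSL_n(q)`, `n ≥ 3`.** -/
theorem row_psl {S : Type u} [Group S] [Finite S] (hs : IsSimpleGroup S) {F : Type v} [Field F] [Fintype F] {n : ℕ}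
    (hn : 3 ≤ n) (e : S ≃* Matrix.ProjectiveSpecialLinearGroup (Fin n) F)
    (h27 : n = 3 → Fintype.card F = 2 → Row (Matrix.ProjectiveSpecialLinearGroup (Fin 2) (ZMod 7)))
    (h6 : n = 6 → Fintype.card F = 2 → Row (Matrix.ProjectiveSpecialLinearGroup (Fin 6) F))
    (h7 : n = 7 → Fintype.card F = 2 → Row (Matrix.ProjectiveSpecialLinearGroup (Fin 7) F)) : Row S := by
  refine Row.congr e ?_
  have hs' : IsSimpleGroup (PS n F) := (e.isSimpleGroup_congr).1 hs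
  by_cases h1 : n = 3 ∧ Fintype.card F = 2
  · obtain ⟨rfl, hF⟩ := h1
    have : Fact (Nat.Prime 7) := ⟨by norm_num⟩
    obtain ⟨e'⟩ := Cfsg.Agent.S0255.result (F := ZMod 7) (K := F) (ZMod.card 7) hF
    exact Row.congr e'.symm (h27 rfl hF)
  by_cases h2 : n = 6 ∧ Fintype.card F = 2
  · obtain ⟨rfl, hF⟩ := h2
    exact h6 rfl hF
  by_cases h3 : n = 7 ∧ Fintype.card F = 2
  · obtain ⟨rfl, hF⟩ := h3
    exact h7 rfl hF
  obtain ⟨p, hpF⟩ := CharP.exists F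
  have hp : p.Prime := CharP.char_is_prime F p
  have : Fact p.Prime := ⟨hp⟩
  obtain ⟨a, -, ha⟩ := FiniteField.card F p
  have hK : Kaw p (PS n F) := by
    obtain ⟨m, rfl⟩ : ∃ m, n = m + 1 := ⟨n - 1, by omega⟩
    exact Cfsg.Agent.H279.OZ.kaw_of_hasRGD hp (Cfsg.Agent.Nodes.RGDClass.hasRGD_PSL m)
  refine Row.of_none fun χ hχ => ?_
  by_cases h4 : n = 3 ∧ (a : ℕ) = 1 ∧ ∃ k, p + 1 = 2 ^ k
  · obtain ⟨rfl, ha1, k, hk⟩ := h4
    rw [ha1, pow_one] at ha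
    refine none_mers hp ha ?_ hk hs' hK hχ
    by_contra hlt
    have h5 : k = 0 ∨ k = 1 := by omega
    have := hp.two_le
    rcases h5 with rfl | rfl
    · omega
    · omega
  · exact none_psl_all hp a.pos ha hn hs' hK h2 h3 h4 h1 hχ

end Cfsg.Agent.H670.OneZ
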