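import Cfsg.Agent.H670.OneZ.RowF
import Cfsg.Agent.H732.OZ.LRow

/-!
# The row `IsPSL` of S4842, without hypotheses (helper670, helper732)
-/

set_option autoImplicit false

namespace Cfsg.Agent.H670.OneZ

open Cfsg Cfsg.Agent.H730.OZ

universe u

/-- **The family `IsPSL`.** -/
theorem row_isPSL_all {S : Type u} [Group S] [Finite S] (hs : IsSimpleGroup S) (h : Cfsg.IsPSL S) : Row S :=
  row_isPSL hs h (fun F _ _ hF => Cfsg.Agent.H732.OZ.row_l62 F hF) (fun F _ _ hF => Cfsg.Agent.H732.OZ.row_l72 F hF)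

end Cfsg.Agent.H670.OneZ
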